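import Mathlib
import Cfsg.Prelude.Def_Classical
import Cfsg.Agent.Lib.Helper18.UEDefs

/-!
# Project UE (S2335, helper18): piece SHEARINJ

The shears `x ↦ x + (ℓ ⬝ᵥ x) • u₀` (`ℓ ⬝ᵥ u₀ = 0`) give pairwise distinct functions
`hq σ K ∘ shear` when `hq σ K u₀ ≠ 0`.
-/

set_option autoImplicit false

namespace Cfsg.Agent.Lib.Helper18.UE

open Matrix

universe u

variable {F : Type u} [Field F] {m : ℕ}

/-- not every element of a field with `q ^ 2` elements satisfies `y + y ^ q = 0` -/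
theorem shearinj_not_all [Fintype F] {q : ℕ} (hF : Fintype.card F = q ^ 2)
    (h : ∀ y : F, y + y ^ q = 0) : False := by
  classical
  have hcard : 1 < Fintype.card F := Fintype.one_lt_card
  have hq2 : 2 ≤ q := by
    by_contra hlt
    have h01 : q = 0 ∨ q = 1 := by omega
    rcases h01 with h0 | h1
    · rw [h0] at hF
      simp at hF
    · rw [h1] at hF
      simp at hF
      omega
  have h11 : (1 : F) + 1 = 0 := by
    have := h 1
    rw [one_pow] at this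
    exact this
  have hall : ∀ y : F, y ^ q - y = 0 := by
    intro y
    have h1 := h y
    have h2 : y + y = 0 := by
      have : y + y = y * (1 + 1) := by ring
      rw [this, h11, mul_zero]
    have h3 : y ^ q = y := by
      have : y ^ q = (y + y ^ q) - (y + y) + y := by ring
      rw [this, h1, h2]
      ring
    rw [h3, sub_self]
  have hp : (Polynomial.X ^ q - Polynomial.X : Polynomial F) ≠ 0 :=
    FiniteField.X_pow_card_sub_X_ne_zero F (by omega)
  have hdeg : (Polynomial.X ^ q - Polynomial.X : Polynomial F).natDegree = q :=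
    FiniteField.X_pow_card_sub_X_natDegree_eq F (by omega)
  have hsub : (Finset.univ : Finset F).val ⊆
      (Polynomial.X ^ q - Polynomial.X : Polynomial F).roots := by
    intro y _
    rw [Polynomial.mem_roots hp, Polynomial.IsRoot.def]
    simp only [Polynomial.eval_sub, Polynomial.eval_pow, Polynomial.eval_X]
    exact hall y
  have hle := Polynomial.card_le_degree_of_subset_roots hsub
  rw [hdeg, Finset.card_univ, hF] at hle
  nlinarith

theorem shear_inj_u [Fintype F] {q : ℕ} (hF : Fintype.card F = q ^ 2) (σ : F →+* F)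
    (hσ : ∀ x, σ x = x ^ q) (K : Matrix (Fin m) (Fin m) F) (hK : IsHerm σ K)
    (u₀ : Fin m → F) (hα : hq σ K u₀ ≠ 0) (ℓ ℓ' : Fin m → F) (hℓ : ℓ ⬝ᵥ u₀ = 0)
    (hℓ' : ℓ' ⬝ᵥ u₀ = 0)
    (heq : ∀ x : Fin m → F,
      hq σ K ((1 + vecMulVec u₀ ℓ) *ᵥ x) = hq σ K ((1 + vecMulVec u₀ ℓ') *ᵥ x)) :
    ℓ = ℓ' := by
  classical
  have hσσ : ∀ x, σ (σ x) = x := by
    intro x
    rw [hσ, hσ, ← pow_mul, ← sq, ← hF, FiniteField.pow_card]
  have hshear : ∀ (l x : Fin m → F), (1 + vecMulVec u₀ l) *ᵥ x = x + (l ⬝ᵥ x) • u₀ := by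
    intro l x
    rw [Matrix.add_mulVec, Matrix.one_mulVec]
    congr 1
    ext i
    simp only [vecMulVec_apply, mulVec, dotProduct, Pi.smul_apply, smul_eq_mul]
    rw [Finset.sum_mul]
    exact Finset.sum_congr rfl (fun j _ => by ring)
  -- the function `t ↦ hq (x + t • u₀)`
  have hE : ∀ (x : Fin m → F) (t : F), hq σ K (x + t • u₀) =
      hq σ K x + t * σ t * hq σ K u₀ + (t * hB σ K x u₀ + σ t * σ (hB σ K x u₀)) := by
    intro x t
    rw [hq_add, hq_smul, hB_smul_right, hB_smul_left, hB_conj σ hσσ hK x u₀]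
  have hkey : ∀ x : Fin m → F, ℓ ⬝ᵥ x = ℓ' ⬝ᵥ x := by
    intro x
    by_contra hne
    have hd : ℓ' ⬝ᵥ x - ℓ ⬝ᵥ x ≠ 0 := fun h => hne (sub_eq_zero.mp h).symm
    -- shifting by `c • u₀`
    have hshift : ∀ c : F, hq σ K (x + (c + ℓ ⬝ᵥ x) • u₀) = hq σ K (x + (c + ℓ' ⬝ᵥ x) • u₀) := by
      intro c
      have h1 := heq (x + c • u₀)
      rw [hshear, hshear, dotProduct_add, dotProduct_add, dotProduct_smul, dotProduct_smul,
        hℓ, hℓ', smul_zero, add_zero, add_zero] at h1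
      have e1 : x + c • u₀ + (ℓ ⬝ᵥ x) • u₀ = x + (c + ℓ ⬝ᵥ x) • u₀ := by
        rw [add_smul, add_assoc]
      have e2 : x + c • u₀ + (ℓ' ⬝ᵥ x) • u₀ = x + (c + ℓ' ⬝ᵥ x) • u₀ := by
        rw [add_smul, add_assoc]
      rw [e1, e2] at h1
      exact h1
    have hT : ∀ t : F, hq σ K u₀ *
        (t * (σ (ℓ' ⬝ᵥ x) - σ (ℓ ⬝ᵥ x)) + (ℓ' ⬝ᵥ x - ℓ ⬝ᵥ x) * σ t) = 0 := by
      intro t
      have ht := hshift (t - ℓ ⬝ᵥ x)
      have h0 := hshift (0 - ℓ ⬝ᵥ x)
      rw [hE, hE] at ht h0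
      simp only [map_add, map_sub, map_zero] at ht h0
      linear_combination h0 - ht
    have hT' : ∀ t : F, t * σ (ℓ' ⬝ᵥ x - ℓ ⬝ᵥ x) + (ℓ' ⬝ᵥ x - ℓ ⬝ᵥ x) * σ t = 0 := by
      intro t
      have := hT t
      rw [← map_sub] at this
      exact (mul_eq_zero.mp this).resolve_left hα
    have hσd : σ (ℓ' ⬝ᵥ x - ℓ ⬝ᵥ x) ≠ 0 := by
      intro h
      apply hd
      have := congrArg σ h
      rw [hσσ, map_zero] at this
      exact this
    apply shearinj_not_all hF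
    intro y
    have h1 := hT' (y * (σ (ℓ' ⬝ᵥ x - ℓ ⬝ᵥ x))⁻¹)
    rw [map_mul, map_inv₀, hσσ, inv_mul_cancel_right₀ hσd] at h1
    rw [← hσ]
    have h2 : (ℓ' ⬝ᵥ x - ℓ ⬝ᵥ x) * (σ y * (ℓ' ⬝ᵥ x - ℓ ⬝ᵥ x)⁻¹) = σ y := by
      field_simp
    rw [h2] at h1
    exact h1
  funext i
  have := hkey (Pi.single i 1)
  simpa using this

end Cfsg.Agent.Lib.Helper18.UE
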