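import Mathlib

set_option autoImplicit false

/-! Counting the union of the conjugates of a self-normalizing T.I. subgroup, and a
"dihedral" description of `M ⊔ ⟨u⟩` (helper56; used for the S3282 piece FINM). -/

namespace Cfsg.Agent.Lib.Helper56

variable {G : Type*} [Group G]

/-- If `X ≤ N` is a T.I. subgroup of `N` which is its own normalizer in `N` (in the combined
form `hTI`), then the `N`-conjugates of `X \ {1}` cover exactly `|N : X| (|X| - 1)` elements. -/
theorem ncard_conj_cover [Finite G] (N X : Subgroup G) (hXN : X ≤ N)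
    (hTI : ∀ g ∈ N, ∀ x ∈ X, x ≠ 1 → g * x * g⁻¹ ∈ X → g ∈ X) :
    ({n : G | ∃ g ∈ N, ∃ x ∈ X, x ≠ 1 ∧ n = g * x * g⁻¹} : Set G).ncard * Nat.card X
      = Nat.card N * (Nat.card X - 1) := by
  classical
  let f : (↥N ⧸ X.subgroupOf N) × {x : ↥X // x ≠ 1} → G :=
    fun p => ((Quotient.out p.1 : ↥N) : G) * ((p.2 : ↥X) : G) * ((Quotient.out p.1 : ↥N) : G)⁻¹
  have hinj : Function.Injective f := by
    rintro ⟨c, x⟩ ⟨c', x'⟩ hff
    simp only [f] at hff
    have hx1 : ((x : ↥X) : G) ≠ 1 := fun h => x.2 (Subtype.ext h)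
    have h1 : ((Quotient.out c' : ↥N) : G)⁻¹ * (Quotient.out c : ↥N) ∈ X := by
      apply hTI _ (N.mul_mem (N.inv_mem (Quotient.out c').2) (Quotient.out c).2) _ (x : ↥X).2 hx1
      have h0 : ((Quotient.out c' : ↥N) : G)⁻¹ * (Quotient.out c : ↥N) * (x : ↥X) *
          (((Quotient.out c' : ↥N) : G)⁻¹ * (Quotient.out c : ↥N))⁻¹ = ((x' : ↥X) : G) := by
        generalize ((Quotient.out c : ↥N) : G) = g at hff ⊢
        generalize ((Quotient.out c' : ↥N) : G) = g' at hff ⊢
        have h00 : ((x' : ↥X) : G) = g'⁻¹ * (g' * x' * g'⁻¹) * g' := by group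
        rw [h00, ← hff]; group
      rw [h0]; exact (x' : ↥X).2
    have h2 : c' = c := by
      rw [← QuotientGroup.out_eq' c', ← QuotientGroup.out_eq' c]
      exact QuotientGroup.eq.mpr (by rw [Subgroup.mem_subgroupOf]; simpa using h1)
    subst h2
    have h3 : ((x : ↥X) : G) = x' := mul_left_cancel (mul_right_cancel hff)
    exact Prod.ext rfl (Subtype.ext (Subtype.ext h3))
  have hrange : Set.range f = {n : G | ∃ g ∈ N, ∃ x ∈ X, x ≠ 1 ∧ n = g * x * g⁻¹} := by
    ext n
    constructor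
    · rintro ⟨⟨c, x⟩, rfl⟩
      exact ⟨_, (Quotient.out c).2, _, (x : ↥X).2, fun h => x.2 (Subtype.ext h), rfl⟩
    · rintro ⟨g, hg, x, hx, hx1, rfl⟩
      obtain ⟨y, hy⟩ := QuotientGroup.mk_out_eq_mul (X.subgroupOf N) (⟨g, hg⟩ : ↥N)
      have hyX : (((y : ↥N)) : G) ∈ X := Subgroup.mem_subgroupOf.mp y.2
      have hmem : (((y : ↥N)) : G)⁻¹ * x * ((y : ↥N) : G) ∈ X :=
        X.mul_mem (X.mul_mem (X.inv_mem hyX) hx) hyX
      have hne : (⟨(((y : ↥N)) : G)⁻¹ * x * ((y : ↥N) : G), hmem⟩ : ↥X) ≠ 1 := by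
        intro h
        apply hx1
        have h' : (((y : ↥N)) : G)⁻¹ * x * ((y : ↥N) : G) = 1 := congrArg Subtype.val h
        have h'' : x = ((y : ↥N) : G) * ((((y : ↥N)) : G)⁻¹ * x * ((y : ↥N) : G)) *
            (((y : ↥N)) : G)⁻¹ := by group
        rw [h'', h']; group
      refine ⟨(QuotientGroup.mk ⟨g, hg⟩, ⟨⟨_, hmem⟩, hne⟩), ?_⟩
      simp only [f]
      rw [hy]
      simp only [Subgroup.coe_mul]
      group
  rw [← hrange, ← Set.image_univ, Set.ncard_image_of_injective _ hinj, Set.ncard_univ,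
    Nat.card_prod]
  have h1 : Nat.card {x : ↥X // x ≠ 1} + 1 = Nat.card X := by
    rw [← Finite.card_option]; exact Nat.card_congr (Equiv.optionSubtypeNe 1)
  have h2 : Nat.card (↥N ⧸ X.subgroupOf N) * Nat.card X = Nat.card N := by
    have h3 := (X.subgroupOf N).index_mul_card
    rw [Subgroup.index, Nat.card_congr (Subgroup.subgroupOfEquivOfLe hXN).toEquiv] at h3
    exact h3
  have h4 : Nat.card {x : ↥X // x ≠ 1} = Nat.card X - 1 := by omega
  rw [h4, ← h2]
  ring

/-- If `u` is an involution inverting `M`, every element of `M ⊔ ⟨u⟩` lies in `M` or in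
`M u`. -/
theorem mem_or_mul_mem_of_mem_sup_zpowers (M : Subgroup G) (u : G) (hu : u * u = 1)
    (hinv : ∀ d ∈ M, u * d * u⁻¹ = d⁻¹) :
    ∀ g ∈ M ⊔ Subgroup.zpowers u, g ∈ M ∨ g * u ∈ M := by
  have hu' : u⁻¹ = u := inv_eq_of_mul_eq_one_left hu
  let S : Subgroup G :=
    { carrier := {g | g ∈ M ∨ g * u ∈ M}
      one_mem' := Or.inl M.one_mem
      mul_mem' := by
        rintro a b (ha | ha) (hb | hb)
        · exact Or.inl (M.mul_mem ha hb)
        · right
          rw [mul_assoc]; exact M.mul_mem ha hb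
        · right
          have h1 : a * b * u = (a * u) * (u * b * u⁻¹) := by
            rw [hu']
            calc a * b * u = a * (u * u) * b * u := by rw [hu, mul_one]
              _ = (a * u) * (u * b * u) := by group
          rw [h1, hinv b hb]
          exact M.mul_mem ha (M.inv_mem hb)
        · left
          have h1 : a * b = (a * u) * (u * (b * u) * u⁻¹) := by
            rw [hu']
            calc a * b = a * (u * u) * b * (u * u) := by rw [hu, mul_one, mul_one]
              _ = (a * u) * (u * (b * u) * u) := by group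
          rw [h1, hinv _ hb]
          exact M.mul_mem ha (M.inv_mem hb)
      inv_mem' := by
        rintro a (ha | ha)
        · exact Or.inl (M.inv_mem ha)
        · right
          have h1 : a⁻¹ * u = u * (a * u)⁻¹ * u⁻¹ := by
            have h0 : u * (a * u)⁻¹ * u⁻¹ = a⁻¹ * u⁻¹ := by group
            rw [h0, hu']
          rw [h1, hinv _ (M.inv_mem ha)]
          exact M.inv_mem (M.inv_mem ha) }
  have hMS : M ≤ S := fun g hg => Or.inl hg
  have huS : Subgroup.zpowers u ≤ S := by
    rw [Subgroup.zpowers_le]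
    exact Or.inr (by rw [hu]; exact M.one_mem)
  intro g hg
  exact (sup_le hMS huS) hg

end Cfsg.Agent.Lib.Helper56
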