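import Cfsg.Agent.Lib.Helper46.BSW0
import Cfsg.Agent.Lib.Helper56.ConjCover

/-!
# S3282 piece FINM (helper56): the case `δ = -1`, group-theoretic finish.
-/

set_option autoImplicit false
set_option linter.style.haveILetI false

namespace Cfsg.Agent.Lib.Helper56.BSWFINM

variable {G : Type*} [Group G]

theorem self_mem_centralizer (x : G) : x ∈ Subgroup.centralizer ({x} : Set G) := by
  rw [Subgroup.mem_centralizer_iff]
  intro y hy
  rw [Set.mem_singleton_iff] at hy
  rw [hy]

theorem conj_mem_centralizer_singleton {a m : G} (g : G)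
    (hm : m ∈ Subgroup.centralizer ({a} : Set G)) :
    g * m * g⁻¹ ∈ Subgroup.centralizer ({g * a * g⁻¹} : Set G) := by
  rw [Subgroup.mem_centralizer_iff]
  intro y hy
  rw [Set.mem_singleton_iff] at hy
  subst hy
  have hma : a * m = m * a := Subgroup.mem_centralizer_iff.mp hm a rfl
  calc g * a * g⁻¹ * (g * m * g⁻¹) = g * (a * m) * g⁻¹ := by group
    _ = g * (m * a) * g⁻¹ := by rw [hma]
    _ = g * m * g⁻¹ * (g * a * g⁻¹) := by group

theorem coprime_two_mul_add_one (d : ℕ) : Nat.Coprime (2 * d + 1) d := by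
  have h1 := Nat.gcd_dvd_left (2 * d + 1) d
  have h2 := Nat.gcd_dvd_right (2 * d + 1) d
  have h3 : Nat.gcd (2 * d + 1) d ∣ 2 * d := Dvd.dvd.mul_left h2 2
  exact Nat.dvd_one.mp ((Nat.dvd_add_right h3).mp h1)

theorem ncard_coe_subgroup (H : Subgroup G) : (H : Set G).ncard = Nat.card H :=
  (Nat.card_coe_set_eq (H : Set G)).symm

end Cfsg.Agent.Lib.Helper56.BSWFINM

namespace Cfsg.Agent.Lib.Helper46.BSW

open Cfsg Cfsg.Agent.Lib.Helper4 Cfsg.Agent.Lib.Helper56.BSWFINM
open scoped ComplexConjugate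

universe u

variable {G : Type u} [Group G]

/-! ### Piece FINM : the case `δ = -1` -/
theorem concl_neg [Finite G] {t s : G} {K : Subgroup G} (h : Setup t s K)
    (hk : 4 ≤ Nat.card K) (Δ : IrrCharacter G) (hS : Stage1 K (-1) Δ)
    (hE1 : ∀ z, Off K z → (Δ : G → ℂ) z = 1 →
      ∃ u : G, TorusData K Δ (Subgroup.centralizer ({z} : Set G)) u)
    (hcard : ∀ y, Off K y → (Δ : G → ℂ) y = 0 →
      Nat.card (Subgroup.centralizer ({y} : Set G)) + 1 = 2 * Nat.card K)
    (Q : Subgroup G) (hQ : QData K Δ Q) : Concl G := by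
  classical
  have hQN : Q ≤ Subgroup.normalizer (Q : Set G) := Subgroup.le_normalizer
  have hkeven : Even (Nat.card K) := by
    have h1 : orderOf t ∣ Nat.card K := by
      have h2 := orderOf_dvd_natCard (⟨t, h.htK⟩ : ↥K)
      rwa [Subgroup.orderOf_mk] at h2
    rw [h.ht] at h1
    exact even_iff_two_dvd.mpr h1
  have hqc : Nat.card Q + 1 = 2 * Nat.card K := hQ.card
  have hNc : Nat.card (Subgroup.normalizer (Q : Set G)) + Nat.card Q
      = Nat.card Q * Nat.card K := hQ.normCard
  have hNc' : Nat.card (Subgroup.normalizer (Q : Set G)) = Nat.card Q * (Nat.card K - 1) := by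
    obtain ⟨k', hk'⟩ : ∃ k', Nat.card K = k' + 1 := ⟨Nat.card K - 1, by omega⟩
    rw [hk'] at hNc ⊢
    simp only [Nat.add_sub_cancel]
    nlinarith
  have hNodd : Odd (Nat.card (Subgroup.normalizer (Q : Set G))) := by
    rw [hNc']
    apply Odd.mul
    · exact ⟨Nat.card K - 1, by omega⟩
    · obtain ⟨r, hr⟩ := hkeven
      exact ⟨r - 1, by omega⟩
  have hQpos : 0 < Nat.card Q := Nat.card_pos
  -- `x ^ (k - 1) ∈ Q` for `x ∈ N`
  have hpowQ : ∀ x ∈ Subgroup.normalizer (Q : Set G), x ^ (Nat.card K - 1) ∈ Q := by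
    intro x hx
    haveI : (Q.subgroupOf (Subgroup.normalizer (Q : Set G))).Normal := inferInstance
    have h1 := Subgroup.pow_index_mem (Q.subgroupOf (Subgroup.normalizer (Q : Set G)))
      (⟨x, hx⟩ : ↥(Subgroup.normalizer (Q : Set G)))
    have h2 : (Q.subgroupOf (Subgroup.normalizer (Q : Set G))).index = Nat.card K - 1 := by
      have h3 := (Q.subgroupOf (Subgroup.normalizer (Q : Set G))).index_mul_card
      rw [Nat.card_congr (Subgroup.subgroupOfEquivOfLe hQN).toEquiv, hNc'] at h3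
      have h4 : (Q.subgroupOf (Subgroup.normalizer (Q : Set G))).index * Nat.card Q
          = (Nat.card K - 1) * Nat.card Q := by rw [h3, mul_comm]
      exact Nat.eq_of_mul_eq_mul_right hQpos h4
    rw [h2, Subgroup.mem_subgroupOf] at h1
    simpa using h1
  have hoff : ∀ z, Off K z → (Δ : G → ℂ) z = 0 ∨ (Δ : G → ℂ) z = 1 := by
    intro z hz
    rcases hS.off_val z hz with h1 | h1
    · exact Or.inl h1
    · right
      rw [h1]
      push_cast
      ring
  -- step 1
  have hstep1 : ∀ x ∈ Subgroup.normalizer (Q : Set G), x ∉ Q → Off K x ∧ (Δ : G → ℂ) x = 1 := by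
    intro x hxN hxQ
    have hxp := hpowQ x hxN
    have hOff : Off K x := by
      by_contra hno
      unfold Off at hno
      push Not at hno
      obtain ⟨g, hg⟩ := hno
      have h1 : (g * x * g⁻¹) ^ Nat.card K = 1 := by
        have h0 := pow_card_eq_one' (G := ↥K) (x := ⟨g * x * g⁻¹, hg⟩)
        exact congrArg Subtype.val h0
      rw [conj_pow] at h1
      have h2 : x ^ Nat.card K = 1 := by
        have h0 : x ^ Nat.card K = g⁻¹ * (g * x ^ Nat.card K * g⁻¹) * g := by group
        rw [h0, h1]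
        group
      apply hxQ
      have h3 : x = (x ^ (Nat.card K - 1))⁻¹ := by
        have h4 : x ^ (Nat.card K - 1) * x = 1 := by
          rw [← pow_succ]
          have h5 : Nat.card K - 1 + 1 = Nat.card K := by omega
          rw [h5]
          exact h2
        exact eq_inv_of_mul_eq_one_right h4
      rw [h3]
      exact Q.inv_mem hxp
    refine ⟨hOff, ?_⟩
    rcases hoff x hOff with h0 | h1
    · exfalso
      have hc := hcard x hOff h0
      have h1 : x ^ (2 * Nat.card K - 1) = 1 := by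
        have h4 := pow_card_eq_one' (G := ↥(Subgroup.centralizer ({x} : Set G)))
          (x := ⟨x, self_mem_centralizer x⟩)
        have h5 : x ^ Nat.card (Subgroup.centralizer ({x} : Set G)) = 1 :=
          congrArg Subtype.val h4
        have h6 : Nat.card (Subgroup.centralizer ({x} : Set G)) = 2 * Nat.card K - 1 := by
          omega
        rw [h6] at h5
        exact h5
      apply hxQ
      have h2 : x = ((x ^ (Nat.card K - 1)) ^ 2)⁻¹ := by
        have h4 : (x ^ (Nat.card K - 1)) ^ 2 * x = 1 := by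
          rw [← pow_mul, ← pow_succ]
          have h5 : (Nat.card K - 1) * 2 + 1 = 2 * Nat.card K - 1 := by omega
          rw [h5]
          exact h1
        exact eq_inv_of_mul_eq_one_right h4
      rw [h2]
      exact Q.inv_mem (Q.pow_mem hxp 2)
    · exact h1
  have hX : ∀ x ∈ Subgroup.normalizer (Q : Set G), x ∉ Q →
      ∃ u : G, TorusData K Δ (Subgroup.centralizer ({x} : Set G)) u := by
    intro x hxN hxQ
    obtain ⟨h1, h2⟩ := hstep1 x hxN hxQ
    exact hE1 x h1 h2
  -- the T.I. property of `X_x = C(x) ⊓ N`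
  have hTI : ∀ x ∈ Subgroup.normalizer (Q : Set G), x ∉ Q →
      ∀ g ∈ Subgroup.normalizer (Q : Set G),
      ∀ a ∈ Subgroup.centralizer ({x} : Set G) ⊓ Subgroup.normalizer (Q : Set G), a ≠ 1 →
      g * a * g⁻¹ ∈ Subgroup.centralizer ({x} : Set G) ⊓ Subgroup.normalizer (Q : Set G) →
      g ∈ Subgroup.centralizer ({x} : Set G) ⊓ Subgroup.normalizer (Q : Set G) := by
    intro x hxN hxQ g hg a ha ha1 hga
    obtain ⟨u, hT⟩ := hX x hxN hxQ
    have haM := (Subgroup.mem_inf.mp ha).1
    have hgaM := (Subgroup.mem_inf.mp hga).1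
    have hga1 : g * a * g⁻¹ ≠ 1 := by
      intro h0
      apply ha1
      have h00 : a = g⁻¹ * (g * a * g⁻¹) * g := by group
      rw [h00, h0]
      group
    have hCa := hT.cent a haM ha1
    have hCga := hT.cent _ hgaM hga1
    have hgNM : g ∈ Subgroup.normalizer
        ((Subgroup.centralizer ({x} : Set G) : Subgroup G) : Set G) := by
      apply Subgroup.mem_normalizer_fintype
      intro m hm
      rw [SetLike.mem_coe, ← hCga]
      apply conj_mem_centralizer_singleton
      rw [hCa]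
      exact hm
    rw [hT.norm] at hgNM
    have huu : u * u = 1 := by
      have h0 := pow_orderOf_eq_one u
      rw [hT.hu, sq] at h0
      exact h0
    refine Subgroup.mem_inf.mpr ⟨?_, hg⟩
    rcases Cfsg.Agent.Lib.Helper56.mem_or_mul_mem_of_mem_sup_zpowers _ u huu hT.hinv g hgNM
      with h1 | h1
    · exact h1
    · have hg2 : g * g = 1 := by
        have hinv := hT.hinv _ h1
        have hu' : u⁻¹ = u := inv_eq_of_mul_eq_one_left huu
        have h3 : u * g = u * g⁻¹ := by
          have h0 : u * (g * u) * u⁻¹ = u * g := by group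
          rw [h0] at hinv
          rw [hinv, mul_inv_rev, hu']
        have h4 : g = g⁻¹ := mul_left_cancel h3
        calc g * g = g * g⁻¹ := by rw [← h4]
          _ = 1 := mul_inv_cancel g
      have hg1 : g = 1 := by
        have h5 : orderOf g ∣ 2 := orderOf_dvd_of_pow_eq_one (by rw [sq]; exact hg2)
        have h6 : orderOf g ∣ Nat.card (Subgroup.normalizer (Q : Set G)) := by
          have h0 := orderOf_dvd_natCard (⟨g, hg⟩ : ↥(Subgroup.normalizer (Q : Set G)))
          rwa [Subgroup.orderOf_mk] at h0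
        have h7 : orderOf g = 1 := by
          have h8 : orderOf g ∣ Nat.gcd 2 (Nat.card (Subgroup.normalizer (Q : Set G))) :=
            Nat.dvd_gcd h5 h6
          have h9 : Nat.gcd 2 (Nat.card (Subgroup.normalizer (Q : Set G))) = 1 :=
            Nat.coprime_two_left.mpr hNodd
          rw [h9] at h8
          exact Nat.dvd_one.mp h8
        exact orderOf_eq_one_iff.mp h7
      rw [hg1]
      exact Subgroup.one_mem _
  -- the covered sets
  have hcount : ∀ x ∈ Subgroup.normalizer (Q : Set G), x ∉ Q →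
      ({n : G | ∃ g ∈ Subgroup.normalizer (Q : Set G),
          ∃ a ∈ Subgroup.centralizer ({x} : Set G) ⊓ Subgroup.normalizer (Q : Set G),
          a ≠ 1 ∧ n = g * a * g⁻¹} : Set G).ncard *
        Nat.card ↥(Subgroup.centralizer ({x} : Set G) ⊓ Subgroup.normalizer (Q : Set G))
      = Nat.card (Subgroup.normalizer (Q : Set G)) *
        (Nat.card ↥(Subgroup.centralizer ({x} : Set G) ⊓ Subgroup.normalizer (Q : Set G)) - 1) :=
    fun x hxN hxQ => Cfsg.Agent.Lib.Helper56.ncard_conj_cover _ _ inf_le_right (hTI x hxN hxQ)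
  have hsub : ∀ x ∈ Subgroup.normalizer (Q : Set G), x ∉ Q →
      ({n : G | ∃ g ∈ Subgroup.normalizer (Q : Set G),
          ∃ a ∈ Subgroup.centralizer ({x} : Set G) ⊓ Subgroup.normalizer (Q : Set G),
          a ≠ 1 ∧ n = g * a * g⁻¹} : Set G) ⊆
        ((Subgroup.normalizer (Q : Set G) : Subgroup G) : Set G) \ (Q : Set G) := by
    rintro x hxN hxQ n ⟨g, hg, a, ha, ha1, rfl⟩
    obtain ⟨u, hT⟩ := hX x hxN hxQ
    obtain ⟨haM, haN⟩ := Subgroup.mem_inf.mp ha
    refine ⟨Subgroup.mul_mem _ (Subgroup.mul_mem _ hg haN) (Subgroup.inv_mem _ hg), ?_⟩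
    intro hnQ
    have haQ : a ∈ Q := (Subgroup.mem_normalizer_iff.mp hg a).mpr hnQ
    have h0 := hQ.val a haQ ha1
    have h1 := hT.val a haM ha1
    rw [h0] at h1
    exact zero_ne_one h1
  have hxmem : ∀ x ∈ Subgroup.normalizer (Q : Set G), x ∉ Q →
      x ∈ Subgroup.centralizer ({x} : Set G) ⊓ Subgroup.normalizer (Q : Set G) ∧ x ≠ 1 :=
    fun x hxN hxQ => ⟨Subgroup.mem_inf.mpr ⟨self_mem_centralizer x, hxN⟩,
      fun h1 => hxQ (h1 ▸ Q.one_mem)⟩
  have hbig : ∀ x ∈ Subgroup.normalizer (Q : Set G), x ∉ Q →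
      Nat.card (Subgroup.normalizer (Q : Set G)) ≤
      2 * ({n : G | ∃ g ∈ Subgroup.normalizer (Q : Set G),
          ∃ a ∈ Subgroup.centralizer ({x} : Set G) ⊓ Subgroup.normalizer (Q : Set G),
          a ≠ 1 ∧ n = g * a * g⁻¹} : Set G).ncard := by
    intro x hxN hxQ
    have h1 := hcount x hxN hxQ
    obtain ⟨hx1, hx2⟩ := hxmem x hxN hxQ
    have h2 : 2 ≤ Nat.card
        ↥(Subgroup.centralizer ({x} : Set G) ⊓ Subgroup.normalizer (Q : Set G)) := by
      have h3 : Nontrivial
          ↥(Subgroup.centralizer ({x} : Set G) ⊓ Subgroup.normalizer (Q : Set G)) :=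
        ⟨⟨⟨x, hx1⟩, 1, fun h0 => hx2 (congrArg Subtype.val h0)⟩⟩
      exact Finite.one_lt_card
    generalize Nat.card
        ↥(Subgroup.centralizer ({x} : Set G) ⊓ Subgroup.normalizer (Q : Set G)) = c at h1 h2
    generalize ({n : G | ∃ g ∈ Subgroup.normalizer (Q : Set G),
          ∃ a ∈ Subgroup.centralizer ({x} : Set G) ⊓ Subgroup.normalizer (Q : Set G),
          a ≠ 1 ∧ n = g * a * g⁻¹} : Set G).ncard = w at h1 ⊢
    generalize Nat.card (Subgroup.normalizer (Q : Set G)) = m at h1 ⊢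
    obtain ⟨c', rfl⟩ : ∃ c', c = c' + 2 := ⟨c - 2, by omega⟩
    simp only [show c' + 2 - 1 = c' + 1 by omega] at h1
    nlinarith
  -- there is `x ∈ N \ Q` with `C(x) ≤ N`
  have hex : ∃ x ∈ Subgroup.normalizer (Q : Set G), x ∉ Q ∧
      Subgroup.centralizer ({x} : Set G) ≤ Subgroup.normalizer (Q : Set G) := by
    have hlt : Q < Subgroup.normalizer (Q : Set G) := by
      refine lt_of_le_of_ne hQN ?_
      intro heq
      have h1 : Nat.card Q = Nat.card Q * (Nat.card K - 1) := by
        conv_lhs => rw [heq]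
        exact hNc'
      have h2 : 2 ≤ Nat.card K - 1 := by omega
      nlinarith
    obtain ⟨x₁, hx₁N, hx₁Q⟩ := SetLike.exists_of_lt hlt
    by_cases hcov : ((Subgroup.normalizer (Q : Set G) : Subgroup G) : Set G) \ (Q : Set G) ⊆
        ({n : G | ∃ g ∈ Subgroup.normalizer (Q : Set G),
          ∃ a ∈ Subgroup.centralizer ({x₁} : Set G) ⊓ Subgroup.normalizer (Q : Set G),
          a ≠ 1 ∧ n = g * a * g⁻¹} : Set G)
    · refine ⟨x₁, hx₁N, hx₁Q, ?_⟩
      obtain ⟨u, hT⟩ := hX x₁ hx₁N hx₁Q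
      have heq := Set.Subset.antisymm (hsub x₁ hx₁N hx₁Q) hcov
      have h1 := hcount x₁ hx₁N hx₁Q
      rw [heq, Set.ncard_sdiff' (by exact_mod_cast hQN), ncard_coe_subgroup, ncard_coe_subgroup,
        hNc'] at h1
      have h2 := (hxmem x₁ hx₁N hx₁Q)
      have h3 : Nat.card
          ↥(Subgroup.centralizer ({x₁} : Set G) ⊓ Subgroup.normalizer (Q : Set G))
          = Nat.card K - 1 := by
        have h4 : 1 ≤ Nat.card
            ↥(Subgroup.centralizer ({x₁} : Set G) ⊓ Subgroup.normalizer (Q : Set G)) :=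
          Nat.card_pos
        generalize Nat.card
          ↥(Subgroup.centralizer ({x₁} : Set G) ⊓ Subgroup.normalizer (Q : Set G)) = c at h1 h4
        obtain ⟨c', rfl⟩ : ∃ c', c = c' + 1 := ⟨c - 1, by omega⟩
        obtain ⟨k', hk'⟩ : ∃ k', Nat.card K = k' + 2 := ⟨Nat.card K - 2, by omega⟩
        rw [hk'] at h1 ⊢
        simp only [Nat.add_sub_cancel, show k' + 2 - 1 = k' + 1 by omega] at h1 ⊢
        have h5 : Nat.card Q * (k' + 1) - Nat.card Q = Nat.card Q * k' := by
          rw [Nat.mul_succ, Nat.add_sub_cancel]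
        rw [h5] at h1
        have h6 : Nat.card Q * (k' * (c' + 1)) = Nat.card Q * ((k' + 1) * c') := by
          nlinarith
        have h7 := Nat.eq_of_mul_eq_mul_left hQpos h6
        nlinarith
      have h8 : Subgroup.centralizer ({x₁} : Set G) ⊓ Subgroup.normalizer (Q : Set G)
          = Subgroup.centralizer ({x₁} : Set G) := by
        apply Subgroup.eq_of_le_of_card_ge inf_le_left
        rw [h3]
        have := hT.card
        omega
      rw [← h8]
      exact inf_le_right
    · exfalso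
      rw [Set.not_subset] at hcov
      obtain ⟨x₂, ⟨hx₂N, hx₂Q⟩, hx₂U⟩ := hcov
      have hx₂Q' : x₂ ∉ Q := hx₂Q
      have hx₂N' : x₂ ∈ Subgroup.normalizer (Q : Set G) := hx₂N
      have hdisj : Disjoint
          ({n : G | ∃ g ∈ Subgroup.normalizer (Q : Set G),
            ∃ a ∈ Subgroup.centralizer ({x₁} : Set G) ⊓ Subgroup.normalizer (Q : Set G),
            a ≠ 1 ∧ n = g * a * g⁻¹} : Set G)
          ({n : G | ∃ g ∈ Subgroup.normalizer (Q : Set G),
            ∃ a ∈ Subgroup.centralizer ({x₂} : Set G) ⊓ Subgroup.normalizer (Q : Set G),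
            a ≠ 1 ∧ n = g * a * g⁻¹} : Set G) := by
        rw [Set.disjoint_left]
        rintro n ⟨g, hg, a, ha, ha1, rfl⟩ ⟨g', hg', b, hb, hb1, hnb⟩
        apply hx₂U
        obtain ⟨u₁, hT₁⟩ := hX x₁ hx₁N hx₁Q
        obtain ⟨u₂, hT₂⟩ := hX x₂ hx₂N' hx₂Q'
        obtain ⟨haM, haN⟩ := Subgroup.mem_inf.mp ha
        obtain ⟨hbM, hbN⟩ := Subgroup.mem_inf.mp hb
        have hCa := hT₁.cent a haM ha1
        have hCb := hT₂.cent b hbM hb1
        -- `x₂` commutes with `b`
        have hx₂b : x₂ ∈ Subgroup.centralizer ({b} : Set G) := by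
          rw [hCb]
          exact self_mem_centralizer x₂
        have hb_eq : b = (g'⁻¹ * g) * a * (g'⁻¹ * g)⁻¹ := by
          have h0 : b = g'⁻¹ * (g' * b * g'⁻¹) * g' := by group
          rw [h0, ← hnb]
          group
        have hcN : g'⁻¹ * g ∈ Subgroup.normalizer (Q : Set G) :=
          Subgroup.mul_mem _ (Subgroup.inv_mem _ hg') hg
        have ha' : (g'⁻¹ * g)⁻¹ * x₂ * (g'⁻¹ * g) ∈ Subgroup.centralizer ({a} : Set G) := by
          have h0 := conj_mem_centralizer_singleton (g'⁻¹ * g)⁻¹ hx₂b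
          have h1 : (g'⁻¹ * g)⁻¹ * b * (g'⁻¹ * g)⁻¹⁻¹ = a := by
            rw [hb_eq]
            group
          rw [h1] at h0
          simpa using h0
        rw [hCa] at ha'
        refine ⟨g'⁻¹ * g, hcN, (g'⁻¹ * g)⁻¹ * x₂ * (g'⁻¹ * g), Subgroup.mem_inf.mpr ⟨ha', ?_⟩,
          ?_, by group⟩
        · exact Subgroup.mul_mem _ (Subgroup.mul_mem _ (Subgroup.inv_mem _ hcN) hx₂N') hcN
        · intro h0
          apply (hxmem x₂ hx₂N' hx₂Q').2
          have h00 : x₂ = (g'⁻¹ * g) * ((g'⁻¹ * g)⁻¹ * x₂ * (g'⁻¹ * g)) * (g'⁻¹ * g)⁻¹ := by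
            group
          rw [h00, h0]
          group
      have h1 := hbig x₁ hx₁N hx₁Q
      have h2 := hbig x₂ hx₂N' hx₂Q'
      have h3 := Set.ncard_union_eq hdisj
      have h4 : (({n : G | ∃ g ∈ Subgroup.normalizer (Q : Set G),
            ∃ a ∈ Subgroup.centralizer ({x₁} : Set G) ⊓ Subgroup.normalizer (Q : Set G),
            a ≠ 1 ∧ n = g * a * g⁻¹} : Set G) ∪
          ({n : G | ∃ g ∈ Subgroup.normalizer (Q : Set G),
            ∃ a ∈ Subgroup.centralizer ({x₂} : Set G) ⊓ Subgroup.normalizer (Q : Set G),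
            a ≠ 1 ∧ n = g * a * g⁻¹} : Set G)).ncard ≤
          (((Subgroup.normalizer (Q : Set G) : Subgroup G) : Set G) \ (Q : Set G)).ncard :=
        Set.ncard_le_ncard (Set.union_subset (hsub x₁ hx₁N hx₁Q) (hsub x₂ hx₂N' hx₂Q'))
      rw [h3, Set.ncard_sdiff' (by exact_mod_cast hQN), ncard_coe_subgroup, ncard_coe_subgroup]
        at h4
      have h5 : Nat.card Q ≤ Nat.card (Subgroup.normalizer (Q : Set G)) :=
        Subgroup.card_le_of_le hQN
      omega
  obtain ⟨x, hxN, hxQ, hDN⟩ := hex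
  obtain ⟨u, hT⟩ := hX x hxN hxQ
  refine ⟨Q, Subgroup.centralizer ({x} : Set G), ?_, hQ.cent, ?_, ?_, ?_, ?_, ?_⟩
  · -- the order
    have h1 := hS.a.card
    have h2 : (2 * (Nat.card K : ℤ)) = (Nat.card Q : ℤ) + 1 := by exact_mod_cast hqc.symm
    obtain ⟨q', hq'⟩ : ∃ q', Nat.card Q = q' + 1 := ⟨Nat.card Q - 1, by omega⟩
    rw [hq'] at h2 ⊢
    simp only [Nat.add_sub_cancel]
    have h3 : (2 * (Nat.card G : ℤ)) = ((q' : ℤ) + 1) * ((q' : ℤ) + 1 + 1) * (q' : ℤ) := by
      rw [h1, h2]
      push_cast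
      ring
    exact_mod_cast h3
  · exact ⟨⟨fun a b => Subtype.ext (hT.hab a a.2 b b.2)⟩⟩
  · have := hT.card
    omega
  · rw [eq_bot_iff]
    intro y hy
    obtain ⟨hyQ, hyD⟩ := Subgroup.mem_inf.mp hy
    by_contra hy1
    have hy1' : y ≠ 1 := fun h0 => hy1 (Subgroup.mem_bot.mpr h0)
    have h0 := hQ.val y hyQ hy1'
    have h1 := hT.val y hyD hy1'
    rw [h0] at h1
    exact zero_ne_one h1
  · symm
    apply Subgroup.eq_of_le_of_card_ge (sup_le hQN hDN)
    have h1 : Nat.card Q ∣ Nat.card ↥(Q ⊔ Subgroup.centralizer ({x} : Set G)) :=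
      Subgroup.card_dvd_of_le le_sup_left
    have h2 : Nat.card (Subgroup.centralizer ({x} : Set G)) ∣
        Nat.card ↥(Q ⊔ Subgroup.centralizer ({x} : Set G)) :=
      Subgroup.card_dvd_of_le le_sup_right
    have h3 : Nat.card Q = 2 * Nat.card (Subgroup.centralizer ({x} : Set G)) + 1 := by
      have := hT.card
      omega
    have h4 : Nat.Coprime (Nat.card Q) (Nat.card (Subgroup.centralizer ({x} : Set G))) := by
      rw [h3]
      exact coprime_two_mul_add_one _
    have h5 := Nat.Coprime.mul_dvd_of_dvd_of_dvd h4 h1 h2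
    have h6 : Nat.card (Subgroup.normalizer (Q : Set G)) =
        Nat.card Q * Nat.card (Subgroup.centralizer ({x} : Set G)) := by
      rw [hNc']
      have := hT.card
      congr 1
      omega
    rw [h6]
    exact Nat.le_of_dvd Nat.card_pos h5
  · intro X hXD hX1
    obtain ⟨x', hx'X, hx'1⟩ : ∃ x' ∈ X, x' ≠ 1 := by
      by_contra hno
      push Not at hno
      exact hX1 ((Subgroup.eq_bot_iff_forall X).mpr hno)
    have hCx' := hT.cent x' (hXD hx'X) hx'1
    refine ⟨?_, u, hT.hu, hT.huM, hT.hinv, hT.norm⟩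
    apply le_antisymm
    · intro g hg
      have hgx : g * x' * g⁻¹ ∈ X := (Subgroup.mem_normalizer_iff.mp hg x').mp hx'X
      have hgx1 : g * x' * g⁻¹ ≠ 1 := by
        intro h0
        apply hx'1
        have h00 : x' = g⁻¹ * (g * x' * g⁻¹) * g := by group
        rw [h00, h0]
        group
      have hCgx := hT.cent _ (hXD hgx) hgx1
      apply Subgroup.mem_normalizer_fintype
      intro m hm
      rw [SetLike.mem_coe, ← hCgx]
      apply conj_mem_centralizer_singleton
      rw [hCx']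
      exact hm
    · rw [hT.norm]
      apply sup_le
      · intro d hd
        apply Subgroup.mem_normalizer_fintype
        intro n hn
        have h0 : d * n = n * d := hT.hab d hd n (hXD hn)
        have h1 : d * n * d⁻¹ = n := by rw [h0]; group
        rw [h1]
        exact hn
      · rw [Subgroup.zpowers_le]
        apply Subgroup.mem_normalizer_fintype
        intro n hn
        rw [hT.hinv n (hXD hn)]
        exact X.inv_mem hn

end Cfsg.Agent.Lib.Helper46.BSW
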