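import Cfsg.Agent.Lib.Helper47.S76Defs

/-! S5976 project (helper47), piece BLOCKODD: `der_block_odd`. -/

set_option autoImplicit false

universe u

namespace Cfsg.Agent.Lib.Helper56.S76BLOCKODD

open Matrix Polynomial Cfsg.Agent.Lib.Helper47 Cfsg.Agent.Lib.Helper47.S76

variable {F : Type u} [Field F]

theorem blockodd_diag_pow {n : ℕ} (A D : Matrix (Fin n) (Fin n) F) (k : ℕ) :
    (Matrix.fromBlocks A 0 0 D) ^ k = Matrix.fromBlocks (A ^ k) 0 0 (D ^ k) := by
  induction k with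
  | zero => simp [Matrix.fromBlocks_one]
  | succ k ih =>
    rw [pow_succ, ih, Matrix.fromBlocks_multiply, pow_succ, pow_succ]
    simp

theorem blockodd_intertwine {n : ℕ} (A D X : Matrix (Fin n) (Fin n) F) (h : X * A = D * X)
    (g : F[X]) : X * aeval A g = aeval D g * X := by
  have hk : ∀ k : ℕ, X * A ^ k = D ^ k * X := by
    intro k
    induction k with
    | zero => simp
    | succ k ih =>
      rw [pow_succ, ← Matrix.mul_assoc, ih, Matrix.mul_assoc, h, ← Matrix.mul_assoc, ← pow_succ]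
  rw [Polynomial.aeval_eq_sum_range, Polynomial.aeval_eq_sum_range, Finset.mul_sum, Finset.sum_mul]
  refine Finset.sum_congr rfl (fun i _ => ?_)
  rw [Matrix.mul_smul, Matrix.smul_mul, hk]

theorem der_block_odd (n : ℕ) (hodd : Odd n) (r : ℕ) (hr : 0 < r) (A : Matrix (Fin n) (Fin n) F)
    (g : F[X]) (hA : A ^ r = 1) (hfix : ∀ v, A *ᵥ v = v → v = 0) (hg : aeval A g = 0)
    (hu : IsUnit (aeval ((A ^ (r - 1))ᵀ) g)) :
    ∃ Y : Matrix (Fin n ⊕ Fin n) (Fin n ⊕ Fin n) F, Y ∈ Matrix.symplecticGroup (Fin n) F ∧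
      Y ^ r = 1 ∧ (∀ v, Y *ᵥ v = v → v = 0) ∧
      ∀ (T : Matrix (Fin n ⊕ Fin n) (Fin n ⊕ Fin n) F) (δ : F), T * Y = Y * T →
        T * T = δ • (1 : Matrix (Fin n ⊕ Fin n) (Fin n ⊕ Fin n) F) → ∃ c : F, c * c = δ := by
  obtain ⟨m, rfl⟩ : ∃ m, r = m + 1 := ⟨r - 1, by omega⟩
  simp only [Nat.add_sub_cancel] at hu
  have hAm : A * A ^ m = 1 := by rw [← pow_succ']; exact hA
  have hmA : A ^ m * A = 1 := by rw [← pow_succ]; exact hA
  set D : Matrix (Fin n) (Fin n) F := (A ^ m)ᵀ with hD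
  have hDA : D * Aᵀ = 1 := by
    rw [hD, ← Matrix.transpose_mul, hAm, Matrix.transpose_one]
  have hAD : Aᵀ * D = 1 := by
    rw [hD, ← Matrix.transpose_mul, hmA, Matrix.transpose_one]
  have hADt : A * Dᵀ = 1 := by
    rw [hD, Matrix.transpose_transpose, hAm]
  have hDr : D ^ (m + 1) = 1 := by
    rw [hD, ← Matrix.transpose_pow, ← pow_mul, mul_comm, pow_mul, hA, one_pow, Matrix.transpose_one]
  -- `A - 1` has nonzero determinant
  have hdet : (A - 1).det ≠ 0 := by
    intro h0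
    obtain ⟨v, hv0, hv⟩ := Matrix.exists_mulVec_eq_zero_iff.2 h0
    apply hv0
    apply hfix
    rw [Matrix.sub_mulVec, Matrix.one_mulVec, sub_eq_zero] at hv
    exact hv
  have hdetT : (Aᵀ - 1).det ≠ 0 := by
    have : Aᵀ - 1 = (A - 1)ᵀ := by rw [Matrix.transpose_sub, Matrix.transpose_one]
    rw [this, Matrix.det_transpose]
    exact hdet
  have hfixD : ∀ v, D *ᵥ v = v → v = 0 := by
    intro v hv
    have h1 : Aᵀ *ᵥ v = v := by
      have := congrArg (fun w => Aᵀ *ᵥ w) hv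
      simp only [Matrix.mulVec_mulVec, hAD, Matrix.one_mulVec] at this
      exact this.symm
    by_contra hv0
    apply hdetT
    apply Matrix.exists_mulVec_eq_zero_iff.1
    refine ⟨v, hv0, ?_⟩
    rw [Matrix.sub_mulVec, Matrix.one_mulVec, h1, sub_self]
  refine ⟨Matrix.fromBlocks A 0 0 D, ?_, ?_, ?_, ?_⟩
  · rw [SymplecticGroup.mem_iff, Matrix.J, Matrix.fromBlocks_transpose,
      Matrix.fromBlocks_multiply, Matrix.fromBlocks_multiply]
    simp [hADt, hDA]
  · rw [blockodd_diag_pow, hA, hDr, Matrix.fromBlocks_one]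
  · intro v hv
    have hv' : v = Sum.elim (v ∘ Sum.inl) (v ∘ Sum.inr) := by
      ext i
      cases i <;> rfl
    rw [hv', Matrix.fromBlocks_mulVec] at hv
    simp only [Matrix.zero_mulVec, add_zero, zero_add] at hv
    have h1 : A *ᵥ (v ∘ Sum.inl) = v ∘ Sum.inl := by
      ext i
      have := congrFun hv (Sum.inl i)
      simpa using this
    have h2 : D *ᵥ (v ∘ Sum.inr) = v ∘ Sum.inr := by
      ext i
      have := congrFun hv (Sum.inr i)
      simpa using this
    have e1 := hfix _ h1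
    have e2 := hfixD _ h2
    ext i
    cases i with
    | inl i => exact congrFun e1 i
    | inr i => exact congrFun e2 i
  · intro T δ hTY hTT
    obtain ⟨k, hk⟩ := hodd
    have hT : T = Matrix.fromBlocks T.toBlocks₁₁ T.toBlocks₁₂ T.toBlocks₂₁ T.toBlocks₂₂ :=
      (Matrix.fromBlocks_toBlocks T).symm
    set T11 := T.toBlocks₁₁
    set T12 := T.toBlocks₁₂
    set T21 := T.toBlocks₂₁
    set T22 := T.toBlocks₂₂
    rw [hT, Matrix.fromBlocks_multiply, Matrix.fromBlocks_multiply] at hTY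
    simp only [Matrix.mul_zero, Matrix.zero_mul, add_zero, zero_add] at hTY
    rw [Matrix.fromBlocks_inj] at hTY
    obtain ⟨-, -, h21, -⟩ := hTY
    have h3 := blockodd_intertwine A D T21 h21 g
    rw [hg, Matrix.mul_zero] at h3
    have hT21 : T21 = 0 := (hu.mul_right_eq_zero).1 h3.symm
    rw [hT, Matrix.fromBlocks_multiply, hT21] at hTT
    have h4 : T11 * T11 = δ • (1 : Matrix (Fin n) (Fin n) F) := by
      have h5 := congrArg Matrix.toBlocks₁₁ hTT
      rw [Matrix.toBlocks_fromBlocks₁₁] at h5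
      rw [Matrix.mul_zero, add_zero] at h5
      rw [h5]
      ext i j
      simp [Matrix.toBlocks₁₁, Matrix.one_apply]
    have h6 := congrArg Matrix.det h4
    rw [Matrix.det_mul, Matrix.det_smul, Matrix.det_one, mul_one, Fintype.card_fin] at h6
    have h7 : δ ^ n = δ ^ (2 * k + 1) := by rw [hk]
    rw [h7] at h6
    by_cases hδ : δ = 0
    · exact ⟨0, by rw [hδ, mul_zero]⟩
    · refine ⟨T11.det / δ ^ k, ?_⟩
      have hδk : δ ^ k ≠ 0 := pow_ne_zero _ hδ
      field_simp
      linear_combination h6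

end Cfsg.Agent.Lib.Helper56.S76BLOCKODD
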