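import Mathlib

/-! Project QA (helper48, S2787), piece QA-PCHAR (helper56): a finite field of order `p ^ n`
has characteristic `p`. -/

set_option autoImplicit false

namespace Cfsg.Agent.Lib.Helper48.QA

/-- QA-PCHAR -/
theorem charP_of_card {F : Type*} [Field F] [Fintype F] {p n : ℕ} [Fact p.Prime]
    (hF : Fintype.card F = p ^ n) : CharP F p := by
  have hp : (p : F) = 0 := by
    have h := Nat.cast_card_eq_zero F
    rw [hF, Nat.cast_pow] at h
    exact eq_zero_of_pow_eq_zero h
  obtain ⟨r, hr⟩ := CharP.exists F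
  have hdvd : r ∣ p := (CharP.cast_eq_zero_iff F r p).1 hp
  have hr1 : r ≠ 1 := CharP.char_ne_one F r
  have hrp : r = p := ((Nat.dvd_prime (Fact.out : p.Prime)).1 hdvd).resolve_left hr1
  rw [← hrp]
  exact hr

end Cfsg.Agent.Lib.Helper48.QA
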