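import Mathlib
import Cfsg.Prelude.Def_Local
import Cfsg.Prelude.Def_SylowChains
import Cfsg.Prelude.Def_Transfer
import Cfsg.Agent.Lib.Helper42.Fusion

/-!
Definitions for the strong form of the Alperin–Goldschmidt conjugation theorem (S3072):
the conditions on a pair `(H, X)`, steps, chains and factorizations `g = c * x₁ ⋯ xₙ * y`.
-/

set_option autoImplicit false

namespace Cfsg.Agent.Lib.Helper56

open Cfsg
open Cfsg.Agent.Lib.Helper42 (cj rc)

variable {G : Type*} [Group G]

/-- the conditions on a pair `(H, X)` in the strong Alperin–Goldschmidt theorem: `H ≤ P` is fully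
normalized, centric, `O_{p',p}(N_G(H)) = H C_G(H)`, the Sylow `p`-subgroups of `N_G(H)/H` are not
chain-connected, and `X/H` is the smallest normal subgroup of `N_G(H)/H` of order divisible by
`p`. -/
def AGGood (p : ℕ) (P H X : Subgroup G) : Prop :=
  H ≤ P ∧
  ¬ p ∣ (P ⊓ Subgroup.normalizer (H : Set G)).relIndex (Subgroup.normalizer (H : Set G)) ∧
  P ⊓ Subgroup.centralizer (H : Set G) ≤ H ∧
  (Cfsg.pPrimePCore p ↥(Subgroup.normalizer (H : Set G))).map
      (Subgroup.normalizer (H : Set G)).subtype = H ⊔ Subgroup.centralizer (H : Set G) ∧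
  ¬ Cfsg.IsSylowChainConnected p
      (↥(Subgroup.normalizer (H : Set G)) ⧸ H.subgroupOf (Subgroup.normalizer (H : Set G))) ∧
  (H ≤ X ∧ X ≤ Subgroup.normalizer (H : Set G) ∧
    (X.subgroupOf (Subgroup.normalizer (H : Set G))).Normal ∧ p ∣ H.relIndex X ∧
    ∀ Y : Subgroup G, H ≤ Y → Y ≤ Subgroup.normalizer (H : Set G) →
      (Y.subgroupOf (Subgroup.normalizer (H : Set G))).Normal → p ∣ H.relIndex Y → X ≤ Y)

/-- a step of the strong Alperin–Goldschmidt chain: `x ∈ O^p(X)` for the subgroup `X` attached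
to `H`. -/
def AGStep (p : ℕ) (P H : Subgroup G) (x : G) : Prop :=
  ∃ X : Subgroup G, AGGood p P H X ∧ x ∈ (Cfsg.pResidual p ↥X).map X.subtype

/-- a chain of steps carrying the set `A` along (acting by `a ↦ x⁻¹ a x`). -/
def AGChain (p : ℕ) (P : Subgroup G) : Set G → List (Subgroup G × G) → Prop
  | _, [] => True
  | A, (T, x) :: L => AGStep p P T x ∧ A ⊆ T ∧ AGChain p P ((fun a => x⁻¹ * a * x) '' A) L

/-- `g = c * x₁ ⋯ xₙ * y` with `c ∈ C_G(A)`, `y ∈ N_G(P)` and `x₁, …, xₙ` a chain of steps. -/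
def AGF (p : ℕ) (P : Subgroup G) (A : Set G) (g : G) : Prop :=
  ∃ c ∈ Subgroup.centralizer A, ∃ L : List (Subgroup G × G),
    ∃ y ∈ Subgroup.normalizer (P : Set G),
      g = c * (L.map Prod.snd).prod * y ∧ AGChain p P A L

theorem agChain_nil (p : ℕ) (P : Subgroup G) (A : Set G) : AGChain p P A [] := trivial

theorem agChain_cons {p : ℕ} {P : Subgroup G} {A : Set G} {T : Subgroup G} {x : G}
    {L : List (Subgroup G × G)} : AGChain p P A ((T, x) :: L) ↔
      AGStep p P T x ∧ A ⊆ T ∧ AGChain p P ((fun a => x⁻¹ * a * x) '' A) L := Iff.rfl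

end Cfsg.Agent.Lib.Helper56
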