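import Mathlib
import Cfsg.Agent.Lib.Helper81.AQDefs

/-! Project AQ (helper81, S3911), piece QUOT2 (backup copy by helper56). -/

set_option autoImplicit false

namespace Cfsg.Agent.Lib.Helper81.AQ

variable {G : Type*} [Group G]

-- piece QUOT2
theorem final_of_lift [Finite G] (hB : Star G) (M : Subgroup G) [M.Normal]
    (hlift : ∀ L : Subgroup G, M ≤ L → AbMod L M → LiftC M L)
    (hq : ∀ A : Subgroup (G ⧸ M), IsMulCommutative ↥A → ComapC M A) :
    ∀ A B : Subgroup (G ⧸ M), IsMulCommutative ↥A → IsMulCommutative ↥B →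
      Nat.card ↥A = Nat.card ↥B → ∃ g : G ⧸ M, B = A.map (MulAut.conj g).toMonoidHom := by
  intro A B hA hB' hcard
  obtain ⟨hMA, habA, hrelA, hcardA⟩ := hq A hA
  obtain ⟨hMB, habB, hrelB, hcardB⟩ := hq B hB'
  obtain ⟨A', hA'c, hA'L, hA'sup, hA'F⟩ := hlift _ hMA habA
  obtain ⟨B', hB'c, hB'L, hB'sup, hB'F⟩ := hlift _ hMB habB
  have hcard' : Nat.card A' = Nat.card B' := by
    apply Nat.eq_of_factorization_eq (Nat.card_pos.ne') (Nat.card_pos.ne')
    intro q
    by_cases hqp : q.Prime
    · rw [hA'F q hqp, hB'F q hqp, hrelA, hrelB, hcardA, hcardB, hcard]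
    · rw [Nat.factorization_eq_zero_of_not_prime _ hqp,
        Nat.factorization_eq_zero_of_not_prime _ hqp]
  obtain ⟨g, hg⟩ := hB A' B' hA'c hB'c hcard'
  have hsurj : Function.Surjective (QuotientGroup.mk' M) := QuotientGroup.mk'_surjective M
  have hAmap : A = A'.map (QuotientGroup.mk' M) := by
    have h1 : (A.comap (QuotientGroup.mk' M)).map (QuotientGroup.mk' M) = A :=
      Subgroup.map_comap_eq_self_of_surjective hsurj A
    rw [← hA'sup, Subgroup.map_sup, QuotientGroup.map_mk'_self, sup_bot_eq] at h1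
    exact h1.symm
  have hBmap : B = B'.map (QuotientGroup.mk' M) := by
    have h1 : (B.comap (QuotientGroup.mk' M)).map (QuotientGroup.mk' M) = B :=
      Subgroup.map_comap_eq_self_of_surjective hsurj B
    rw [← hB'sup, Subgroup.map_sup, QuotientGroup.map_mk'_self, sup_bot_eq] at h1
    exact h1.symm
  refine ⟨QuotientGroup.mk' M g, ?_⟩
  have hhom : (QuotientGroup.mk' M).comp (MulAut.conj g).toMonoidHom =
      (MulAut.conj (QuotientGroup.mk' M g)).toMonoidHom.comp (QuotientGroup.mk' M) := by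
    ext x
    simp [MulAut.conj_apply]
  calc B = B'.map (QuotientGroup.mk' M) := hBmap
    _ = (A'.map (MulAut.conj g).toMonoidHom).map (QuotientGroup.mk' M) := by rw [hg]
    _ = A'.map ((QuotientGroup.mk' M).comp (MulAut.conj g).toMonoidHom) := Subgroup.map_map _ _ _
    _ = A'.map ((MulAut.conj (QuotientGroup.mk' M g)).toMonoidHom.comp (QuotientGroup.mk' M)) := by
        rw [hhom]
    _ = (A'.map (QuotientGroup.mk' M)).map (MulAut.conj (QuotientGroup.mk' M g)).toMonoidHom :=
        (Subgroup.map_map _ _ _).symm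
    _ = A.map (MulAut.conj (QuotientGroup.mk' M g)).toMonoidHom := by rw [← hAmap]

end Cfsg.Agent.Lib.Helper81.AQ
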