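import Cfsg.Agent.Lib.Helper15.BG12Defs3
import Cfsg.Agent.S1451

/-!
# B&G Section 12, piece PNB: `M_σ ≠ 1` for every maximal subgroup `M`
-/

set_option autoImplicit false
set_option linter.style.haveILetI false

open Cfsg Cfsg.Agent.Lib.Helper32 Cfsg.Agent.Lib.Helper32.BG10 Cfsg.Agent.Lib.Helper3.BG12
  Cfsg.Agent.Lib.Helper15.BG12

namespace Cfsg.Agent.Lib.Helper56.BG12x

universe u

variable {G : Type u} [Group G] [Finite G]

omit [Finite G] in
/-- a maximal subgroup of a minimal simple group is not trivial -/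
theorem pnb_coatom_ne_bot (hG : IsMinSimpleOddOrder G) {M : Subgroup G} (hM : IsCoatom M) :
    M ≠ ⊥ := by
  rintro rfl
  apply hG.2.2.1
  refine ⟨⟨fun a b => ?_⟩⟩
  by_cases ha : Subgroup.zpowers a = ⊥
  · rw [Subgroup.zpowers_eq_bot] at ha
    rw [ha, one_mul, mul_one]
  · have htop : Subgroup.zpowers a = ⊤ := hM.2 _ (bot_lt_iff_ne_bot.2 ha)
    have hb : b ∈ Subgroup.zpowers a := by
      rw [htop]
      exact Subgroup.mem_top b
    obtain ⟨k, rfl⟩ := Subgroup.mem_zpowers_iff.1 hb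
    exact ((Commute.refl a).zpow_right k).eq

/-- `σ(M)` is not empty -/
theorem pnb_exists_sigma (hG : IsMinSimpleOddOrder G) {M : Subgroup G} (hM : IsCoatom M) :
    ∃ r, r ∈ sigma M := by
  by_cases h : ∃ r : ℕ, r.Prime ∧ ¬ PRankLE r 2 ↥M
  · obtain ⟨r, hrp, hr3⟩ := h
    exact ⟨r, alpha_sub_sigma hG (ut_of hG) hM ⟨hrp, hr3⟩⟩
  · have hrank : RankLE 2 ↥M := fun q hq => by
      by_contra h'
      exact h ⟨q, hq, h'⟩
    have hMbot : M ≠ ⊥ := pnb_coatom_ne_bot hG hM
    have hcard1 : Nat.card ↥M ≠ 1 := fun h1 => hMbot (Subgroup.card_eq_one.1 h1)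
    have hne : (Nat.card ↥M).primeFactors.Nonempty := by
      rw [Nat.nonempty_primeFactors]
      have h0 : 0 < Nat.card ↥M := Nat.card_pos
      omega
    obtain ⟨r, hr⟩ : ∃ r, r = (Nat.card ↥M).primeFactors.max' hne := ⟨_, rfl⟩
    have hrmem : r ∈ (Nat.card ↥M).primeFactors := by
      rw [hr]
      exact Finset.max'_mem _ _
    have hrp : r.Prime := Nat.prime_of_mem_primeFactors hrmem
    have hrM : r ∣ Nat.card ↥M := Nat.dvd_of_mem_primeFactors hrmem
    have hmax : ∀ q : ℕ, q.Prime → q ∣ Nat.card ↥M → q ≤ r := by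
      intro q hq hqM
      rw [hr]
      exact Finset.le_max' _ _ (Nat.mem_primeFactors.2 ⟨hq, hqM, Nat.card_pos.ne'⟩)
    haveI : Fact r.Prime := ⟨hrp⟩
    haveI : Group.IsSolvable ↥M := minSimple_solvable hG hM.1
    obtain ⟨N, hNchar, hNhall⟩ :=
      (Cfsg.Agent.S1451.result (G := ↥M) (minSimple_odd_sub hG M) (Or.inl hrank)).2.2 (r - 1)
    have hNp : IsPGroup r N := by
      have h1 : ∀ q : ℕ, q.Prime → q ∣ Nat.card N → q = r := by
        intro q hq hqN
        have h2 : q.Prime ∧ r - 1 < q := hNhall.1 q hq hqN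
        have h3 := hmax q hq (hqN.trans (Subgroup.card_subgroup_dvd_card N))
        omega
      have h4 : Nat.card N = r ^ (Nat.card N).primeFactorsList.length :=
        Nat.eq_prime_pow_of_unique_prime_dvd Nat.card_pos.ne' (fun {d} hd hdn => h1 d hd hdn)
      exact IsPGroup.of_card h4
    have hidx : ¬ r ∣ N.index :=
      hNhall.2 r hrp (show r.Prime ∧ r - 1 < r from ⟨hrp, by have := hrp.two_le; omega⟩)
    obtain ⟨P, hPN⟩ : ∃ P : Sylow r ↥M, (P : Subgroup ↥M) = N :=
      ⟨hNp.toSylow hidx, IsPGroup.toSylow_coe hNp hidx⟩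
    have hQ : N.map M.subtype ∈ sylSet r M := by
      rw [← hPN]
      exact mem_sylSet_of_sylow P
    have hN1 : N ≠ ⊥ := by
      intro h0
      have h1 : r ∣ Nat.card N * N.index := by
        rw [Subgroup.card_mul_index]
        exact hrM
      rcases (Nat.Prime.dvd_mul hrp).1 h1 with h2 | h2
      · rw [h0, Subgroup.card_bot] at h2
        exact hrp.one_lt.ne' (Nat.dvd_one.1 h2)
      · exact hidx h2
    have hQ1 : N.map M.subtype ≠ ⊥ := by
      intro h0
      exact hN1 ((Subgroup.map_eq_bot_iff_of_injective N M.subtype_injective).1 h0)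
    haveI := hNchar
    have hNn : N.Normal := inferInstance
    have hMN : M ≤ Subgroup.normalizer ((N.map M.subtype : Subgroup G) : Set G) := by
      intro m hm
      apply Subgroup.mem_normalizer_fintype
      intro x hx
      obtain ⟨n, hn, rfl⟩ := Subgroup.mem_map.1 (SetLike.mem_coe.1 hx)
      exact SetLike.mem_coe.2 (Subgroup.mem_map.2
        ⟨⟨m, hm⟩ * n * ⟨m, hm⟩⁻¹, hNn.conj_mem n hn ⟨m, hm⟩, rfl⟩)
    have hNQ : Subgroup.normalizer ((N.map M.subtype : Subgroup G) : Set G) = M :=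
      normalizer_eq_of_coatom hG hM hQ1 hQ.1 hMN
    exact ⟨r, mem_sigma_of_normalizer_le hQ hQ1 hNQ.le⟩

theorem sigmaCore_ne_bot (hG : IsMinSimpleOddOrder G) {M : Subgroup G} (hM : IsCoatom M) :
    sigmaCore M ≠ ⊥ := by
  obtain ⟨r, hr⟩ := pnb_exists_sigma hG hM
  obtain ⟨hrp, hrM, _⟩ := hr
  have hall := (sigma_hall hG (ut_of hG) (h2_of hG) (sigDer_of hG) hM).1
  intro hbot
  rw [hbot] at hall
  apply hall.2.2 r hrp ⟨hrp, hrM, ‹_›⟩
  rw [Subgroup.relIndex_bot_left]
  exact hrM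

end Cfsg.Agent.Lib.Helper56.BG12x
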