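import Mathlib

/-! Project EP (helper7, S5746), piece HINV (helper56). -/

set_option autoImplicit false

namespace Cfsg.Agent.Lib.Helper7.EP

/-- HINV: the stabiliser of `a` preserves the two orbits of `L` on the other points, when the
number of other points does not divide its order. -/
theorem EPHINV {W : Type*} [Group W] [Finite W] {n : ℕ} (π : W →* Equiv.Perm (Fin n)) (a : Fin n)
    (c : Fin n → ℕ) (L : Subgroup W)
    (hL : L ≤ (MulAction.stabilizer (Equiv.Perm (Fin n)) a).comap π)
    (hc0 : ∀ i, c i = 0 ↔ i = a) (hc2 : ∀ i, c i ≤ 2)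
    (hconn : ∀ i j, c i = c j → ∃ l ∈ L, π l i = j)
    (hcard : ¬ (n - 1) ∣ Nat.card ((MulAction.stabilizer (Equiv.Perm (Fin n)) a).comap π)) :
    ∀ h ∈ (MulAction.stabilizer (Equiv.Perm (Fin n)) a).comap π, ∀ i, c (π h i) = c i := by
  intro h hh i
  by_contra hne
  apply hcard
  have hmemH : ∀ w : W, w ∈ (MulAction.stabilizer (Equiv.Perm (Fin n)) a).comap π →
      π w a = a := by
    intro w hw
    rw [Subgroup.mem_comap, MulAction.mem_stabilizer_iff] at hw
    exact hw
  have hia : i ≠ a := by
    intro hia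
    apply hne
    rw [hia, hmemH h hh]
  have hfix : ∀ w ∈ (MulAction.stabilizer (Equiv.Perm (Fin n)) a).comap π, ∀ j, j ≠ a →
      π w j ≠ a := by
    intro w hw j hj hwj
    apply hj
    exact (π w).injective (hwj.trans (hmemH w hw).symm)
  have hci : c i = 1 ∨ c i = 2 := by
    have h0 : c i ≠ 0 := fun h0 => hia ((hc0 i).mp h0)
    have h2 := hc2 i
    omega
  have hhi : π h i ≠ a := hfix h hh i hia
  have hchi : c (π h i) = 1 ∨ c (π h i) = 2 := by
    have h0 : c (π h i) ≠ 0 := fun h0 => hhi ((hc0 _).mp h0)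
    have h2 := hc2 (π h i)
    omega
  let _ : MulAction ↥((MulAction.stabilizer (Equiv.Perm (Fin n)) a).comap π) (Fin n) :=
    MulAction.compHom (Fin n)
      (π.comp ((MulAction.stabilizer (Equiv.Perm (Fin n)) a).comap π).subtype)
  have hsmul : ∀ (w : ↥((MulAction.stabilizer (Equiv.Perm (Fin n)) a).comap π)) (j : Fin n),
      w • j = π (w : W) j := fun w j => rfl
  have horb : MulAction.orbit ↥((MulAction.stabilizer (Equiv.Perm (Fin n)) a).comap π) i =
      {j : Fin n | j ≠ a} := by
    ext j
    constructor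
    · rintro ⟨w, rfl⟩
      show w • i ≠ a
      rw [hsmul]
      exact hfix w w.2 i hia
    · intro hj
      have hja : j ≠ a := hj
      have hcj : c j = 1 ∨ c j = 2 := by
        have h0 : c j ≠ 0 := fun h0 => hja ((hc0 j).mp h0)
        have h2 := hc2 j
        omega
      by_cases hcij : c i = c j
      · obtain ⟨l, hl, hlj⟩ := hconn i j hcij
        refine ⟨⟨l, hL hl⟩, ?_⟩
        show (⟨l, hL hl⟩ : ↥((MulAction.stabilizer (Equiv.Perm (Fin n)) a).comap π)) • i = j
        rw [hsmul]
        exact hlj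
      · have hcj' : c (π h i) = c j := by omega
        obtain ⟨l, hl, hlj⟩ := hconn (π h i) j hcj'
        refine ⟨⟨l * h, mul_mem (hL hl) hh⟩, ?_⟩
        show (⟨l * h, mul_mem (hL hl) hh⟩ :
          ↥((MulAction.stabilizer (Equiv.Perm (Fin n)) a).comap π)) • i = j
        rw [hsmul]
        simp only [map_mul, Equiv.Perm.mul_apply]
        exact hlj
  have hcardorb : (MulAction.orbit ↥((MulAction.stabilizer (Equiv.Perm (Fin n)) a).comap π)
      i).ncard = n - 1 := by
    rw [horb]
    have e : {j : Fin n | j ≠ a} = ({a} : Set (Fin n))ᶜ := by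
      ext j
      simp
    rw [e, Set.ncard_compl, Set.ncard_singleton, Nat.card_fin]
  have hidx := MulAction.index_stabilizer
    (↥((MulAction.stabilizer (Equiv.Perm (Fin n)) a).comap π)) i
  rw [← hcardorb, ← hidx]
  exact Subgroup.index_dvd_card _

end Cfsg.Agent.Lib.Helper7.EP
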