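import Mathlib
import Cfsg.Agent.Lib.Helper84.GADefs

/-!
# Project GA (S4840, helper84): piece INV

For odd `p` an involution of a group acting as in `TL` acts as `-1`; hence it is central and
unique.
-/

set_option autoImplicit false

namespace Cfsg.Agent.Lib.Helper56.GA

universe u

open Cfsg.Agent.Lib.Helper84.GA

/-- an involution acts as `-1` -/
theorem inv_neg {p : ℕ} [Fact p.Prime] {Γ : Type u} [Group Γ] {V : Type u} [AddCommGroup V]
    [Module (ZMod p) V] (ρ : Γ →* (V ≃ₗ[ZMod p] V)) (hTL : TL ρ) (hp2 : p ≠ 2)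
    (t : Γ) (ht : orderOf t = 2) (v : V) : ρ t v = -v := by
  have hp : p.Prime := Fact.out
  have ht2 : t * t = 1 := by
    have := pow_orderOf_eq_one t
    rw [ht, pow_two] at this
    exact this
  have hfix : ρ t (v + ρ t v) = v + ρ t v := by
    have h1 : ρ t (ρ t v) = v := by
      have h2 : ρ (t * t) v = v := by
        rw [ht2, map_one]
        rfl
      rw [map_mul] at h2
      exact h2
    rw [map_add, h1, add_comm]
  by_cases hw : v + ρ t v = 0
  · exact (eq_neg_of_add_eq_zero_right hw)
  · exfalso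
    obtain ⟨k, hk⟩ := hTL.stab _ hw t hfix
    rw [ht] at hk
    rcases Nat.eq_zero_or_pos k with hk0 | hk0
    · rw [hk0, pow_zero] at hk
      omega
    · have hdvd : p ∣ 2 := by
        rw [hk]
        exact dvd_pow_self p (by omega)
      have := (Nat.prime_dvd_prime_iff_eq hp Nat.prime_two).mp hdvd
      exact hp2 this

theorem inv : InvStmt.{u} := by
  intro p _ Γ _ _ V _ _ _ ρ hTL hp2 t ht
  refine ⟨?_, ?_⟩
  · intro g
    apply hTL.inj
    apply LinearEquiv.ext
    intro v
    rw [map_mul, map_mul]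
    change ρ t (ρ g v) = ρ g (ρ t v)
    rw [inv_neg ρ hTL hp2 t ht, inv_neg ρ hTL hp2 t ht, map_neg]
  · intro t' ht'
    apply hTL.inj
    apply LinearEquiv.ext
    intro v
    rw [inv_neg ρ hTL hp2 t ht, inv_neg ρ hTL hp2 t' ht']

end Cfsg.Agent.Lib.Helper56.GA
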