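import Cfsg.Prelude.Def_SubgroupEmbedding
import Cfsg.Prelude.Def_Local
import Cfsg.Prelude.Def_Transfer
import Cfsg.Agent.Lib.Helper56.PCore
import Cfsg.Agent.Lib.Helper30.Cores
import Mathlib

set_option autoImplicit false
open Cfsg

namespace Cfsg.Agent.Lib.Helper56

universe u

section SidkiGen

variable {G : Type u} [Group G]

/-- the relative Sidki condition: `U` against the odd-order elements of `H` -/
def SidkiIn (U H : Subgroup G) : Prop :=
  ∀ h ∈ H, ∀ v ∈ U, Odd (orderOf h) → v * h * v⁻¹ = h⁻¹ → ∃ w ∈ U, w ≠ 1 ∧ w * h = h * w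

theorem sidkiIn_of_sidki {V : Subgroup G} (hS : IsSidkiPair V) (H : Subgroup G) : SidkiIn V H :=
  fun h _ v hv ho hinv => hS h v hv ho hinv

theorem sidki_subgroupOf {U H : Subgroup G} (hUH : U ≤ H) (h : SidkiIn U H) :
    IsSidkiPair (U.subgroupOf H) := by
  intro x v hv ho hinv
  have ho' : Odd (orderOf (x : G)) := by rwa [Subgroup.orderOf_coe]
  have hinv' : (v : G) * (x : G) * (v : G)⁻¹ = (x : G)⁻¹ := by
    have := congrArg Subtype.val hinv
    simpa using this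
  obtain ⟨w, hw, hw1, hwc⟩ := h x x.2 v (Subgroup.mem_subgroupOf.mp hv) ho' hinv'
  refine ⟨⟨w, hUH hw⟩, Subgroup.mem_subgroupOf.mpr hw, ?_, ?_⟩
  · intro h1; exact hw1 (congrArg Subtype.val h1)
  · exact Subtype.ext hwc

theorem elemAb_comm {V : Subgroup G} (hV : IsElementaryAbelian 2 V) {a b : G} (ha : a ∈ V)
    (hb : b ∈ V) : a * b = b * a := by
  have := hV.1.is_comm.comm (⟨a, ha⟩ : V) ⟨b, hb⟩
  exact congrArg Subtype.val this

theorem elemAb_sq {V : Subgroup G} (hV : IsElementaryAbelian 2 V) {a : G} (ha : a ∈ V) :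
    a * a = 1 := by
  have := hV.2 a ha
  rwa [sq] at this

theorem elemAb_inv {V : Subgroup G} (hV : IsElementaryAbelian 2 V) {a : G} (ha : a ∈ V) :
    a⁻¹ = a := inv_eq_of_mul_eq_one_left (elemAb_sq hV ha)

theorem elemAb_of_le {V U : Subgroup G} (hV : IsElementaryAbelian 2 V) (hUV : U ≤ V) :
    IsElementaryAbelian 2 U := by
  refine ⟨⟨⟨fun a b => ?_⟩⟩, fun a ha => hV.2 a (hUV ha)⟩
  exact Subtype.ext (elemAb_comm hV (hUV a.2) (hUV b.2))

theorem elemAb_subgroupOf {U H : Subgroup G} (hU : IsElementaryAbelian 2 U) :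
    IsElementaryAbelian 2 (U.subgroupOf H) := by
  refine ⟨⟨⟨fun a b => ?_⟩⟩, fun a ha => ?_⟩
  · apply Subtype.ext
    apply Subtype.ext
    exact elemAb_comm hU (Subgroup.mem_subgroupOf.mp a.2) (Subgroup.mem_subgroupOf.mp b.2)
  · apply Subtype.ext
    have := hU.2 (a : G) (Subgroup.mem_subgroupOf.mp ha)
    simpa using this

theorem sidki_elemAb_isPGroup {V : Subgroup G} (hV : IsElementaryAbelian 2 V) : IsPGroup 2 V := by
  intro g
  refine ⟨1, ?_⟩
  apply Subtype.ext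
  have := hV.2 g.1 g.2
  simpa using this

/-- the minimality hypothesis over `G`, applied to a proper subgroup -/
theorem sidki_min_sub [Finite G]
    (hminG : ∀ (H : Type u) [Group H] [Finite H] (W : Subgroup H), Nat.card H < Nat.card G →
      IsElementaryAbelian 2 W → W ≠ ⊥ → IsSidkiPair W → W ⊓ pCore 2 H ≠ ⊥)
    {U H : Subgroup G} (hUH : U ≤ H) (hH : H ≠ ⊤) (hU : IsElementaryAbelian 2 U) (hU1 : U ≠ ⊥)
    (hS : SidkiIn U H) : ∃ u ∈ U, u ≠ 1 ∧ u ∈ pCoreOf 2 H := by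
  have hcard : Nat.card H < Nat.card G := by
    apply lt_of_le_of_ne (Subgroup.card_le_card_group H)
    intro h; exact hH (Subgroup.eq_top_of_card_eq H h)
  have hne : U.subgroupOf H ≠ ⊥ := by
    intro h
    apply hU1
    rw [eq_bot_iff]
    intro x hx
    have : (⟨x, hUH hx⟩ : H) ∈ U.subgroupOf H := Subgroup.mem_subgroupOf.mpr hx
    rw [h, Subgroup.mem_bot] at this
    exact Subgroup.mem_bot.mpr (congrArg Subtype.val this)
  have h1 := hminG H (U.subgroupOf H) hcard (elemAb_subgroupOf hU) hne (sidki_subgroupOf hUH hS)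
  by_contra hcon
  push Not at hcon
  apply h1
  rw [eq_bot_iff]
  rintro x ⟨hx1, hx2⟩
  rw [Subgroup.mem_bot]
  by_contra hx
  apply hcon (x : G) (Subgroup.mem_subgroupOf.mp hx1) (fun h => hx (Subtype.ext h))
  rw [mem_pCoreOf_iff]
  exact ⟨x.2, hx2⟩

theorem pCoreOf_le_pCore_of_subnormal [Finite G] {p : ℕ} [Fact p.Prime] {K : Subgroup G}
    (hK : K.IsSubnormal) : pCoreOf p K ≤ pCore p G := by
  apply Cfsg.Agent.Lib.Helper30.le_pCore_of_subnormal _ (pCoreOf_isPGroup p K)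
  have h1 : ((pCoreOf p K).subgroupOf K).Normal :=
    Subgroup.normal_subgroupOf_of_le_normalizer (le_normalizer_pCoreOf p K)
  exact Subgroup.IsSubnormal.trans (pCoreOf_le p K) h1.isSubnormal hK

/-- `O_2(X)` centralizes a subnormal subgroup `L` of `G` that is normal in `X`, when `O_2(G) = 1` -/
theorem pCoreOf_centralizes [Finite G] (hO : pCore 2 G = ⊥) {L X : Subgroup G} (hLX : L ≤ X)
    (hXL : X ≤ Subgroup.normalizer (L : Set G)) (hL : L.IsSubnormal) :
    ∀ q ∈ pCoreOf 2 X, ∀ x ∈ L, q * x = x * q := by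
  haveI : Fact (Nat.Prime 2) := ⟨Nat.prime_two⟩
  intro q hq x hx
  have hTn : ((pCoreOf 2 X ⊓ L).subgroupOf L).Normal := by
    apply Subgroup.normal_subgroupOf_of_le_normalizer
    exact le_trans (le_inf (hLX.trans (le_normalizer_pCoreOf 2 X)) Subgroup.le_normalizer)
      Subgroup.inf_normalizer_le_normalizer_inf
  have hTs : (pCoreOf 2 X ⊓ L).IsSubnormal :=
    Subgroup.IsSubnormal.trans inf_le_right hTn.isSubnormal hL
  have hTp : IsPGroup 2 (pCoreOf 2 X ⊓ L : Subgroup G) :=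
    (pCoreOf_isPGroup 2 X).to_le inf_le_left
  have hT : pCoreOf 2 X ⊓ L ≤ pCore 2 G :=
    Cfsg.Agent.Lib.Helper30.le_pCore_of_subnormal hTs hTp
  rw [hO] at hT
  have hmem : q * x * q⁻¹ * x⁻¹ ∈ pCoreOf 2 X ⊓ L := by
    refine Subgroup.mem_inf.mpr ⟨?_, ?_⟩
    · have h1 : x * q⁻¹ * x⁻¹ ∈ pCoreOf 2 X :=
        (Subgroup.mem_normalizer_iff.mp (le_normalizer_pCoreOf 2 X (hLX hx)) q⁻¹).mp (inv_mem hq)
      have e : q * x * q⁻¹ * x⁻¹ = q * (x * q⁻¹ * x⁻¹) := by group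
      rw [e]; exact mul_mem hq h1
    · have h1 : q * x * q⁻¹ ∈ L :=
        (Subgroup.mem_normalizer_iff.mp (hXL (pCoreOf_le 2 X hq)) x).mp hx
      exact mul_mem h1 (inv_mem hx)
  have h1 := hT hmem
  rw [Subgroup.mem_bot] at h1
  have h2 : q * x * q⁻¹ = x := mul_inv_eq_one.mp h1
  exact mul_inv_eq_iff_eq_mul.mp h2

theorem pow_sq_odd {h : G} (ho : Odd (orderOf h)) : ∃ k : ℕ, (h * h) ^ k = h := by
  obtain ⟨k, hk⟩ := ho
  refine ⟨k + 1, ?_⟩
  rw [← sq, ← pow_mul]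
  have : 2 * (k + 1) = orderOf h + 1 := by omega
  rw [this, pow_succ, pow_orderOf_eq_one, one_mul]

theorem commute_of_sq_commute {h x : G} (ho : Odd (orderOf h)) (hc : Commute (h * h) x) :
    Commute h x := by
  obtain ⟨k, hk⟩ := pow_sq_odd ho
  rw [← hk]
  exact hc.pow_left k

theorem mem_of_sq_mem {L : Subgroup G} {x : G} (ho : Odd (orderOf x)) (h : x * x ∈ L) :
    x ∈ L := by
  obtain ⟨k, hk⟩ := pow_sq_odd ho
  rw [← hk]
  exact pow_mem h k

theorem eq_one_of_sq_of_odd {x : G} (ho : Odd (orderOf x)) (h : x * x = 1) : x = 1 := by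
  obtain ⟨k, hk⟩ := pow_sq_odd ho
  rw [← hk, h, one_pow]

theorem odd_orderOf_mul {a b : G} (hc : Commute a b) (ha : Odd (orderOf a))
    (hb : Odd (orderOf b)) : Odd (orderOf (a * b)) := by
  have h1 : orderOf (a * b) ∣ orderOf a * orderOf b := by
    apply orderOf_dvd_of_pow_eq_one
    rw [hc.mul_pow, pow_mul, pow_orderOf_eq_one, one_pow, mul_comm (orderOf a), pow_mul,
      pow_orderOf_eq_one, one_pow, one_mul]
  exact Odd.of_dvd_nat (ha.mul hb) h1

theorem odd_orderOf_inv {a : G} (ha : Odd (orderOf a)) : Odd (orderOf a⁻¹) := by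
  rwa [orderOf_inv]

theorem odd_orderOf_conj {a : G} (g : G) (ha : Odd (orderOf a)) :
    Odd (orderOf (g * a * g⁻¹)) := by
  have : orderOf (g * a * g⁻¹) = orderOf a := by
    have := orderOf_injective (MulAut.conj g).toMonoidHom (MulAut.conj g).injective a
    simpa using this
  rwa [this]

/-- minimal normal subgroups -/
def IsMinNormal (L : Subgroup G) : Prop :=
  L.Normal ∧ L ≠ ⊥ ∧ ∀ N : Subgroup G, N.Normal → N ≠ ⊥ → N ≤ L → L ≤ N

theorem exists_minNormal_le [Finite G] {K : Subgroup G} (hK : K.Normal) (hK1 : K ≠ ⊥) :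
    ∃ L, IsMinNormal L ∧ L ≤ K := by
  have hfin : {N : Subgroup G | N.Normal ∧ N ≠ ⊥ ∧ N ≤ K}.Finite := Set.toFinite _
  obtain ⟨L, ⟨hLn, hL1, hLK⟩, hmin⟩ := hfin.exists_minimal ⟨K, hK, hK1, le_rfl⟩
  refine ⟨L, ⟨hLn, hL1, fun N hN hN1 hNL => ?_⟩, hLK⟩
  exact hmin ⟨hN, hN1, hNL.trans hLK⟩ hNL

/-- a subgroup normalized by `V` and `L` is normal when `V ⊔ L = ⊤` -/
theorem normal_of_sup_top {V L N : Subgroup G} (htop : V ⊔ L = ⊤)
    (hV : V ≤ Subgroup.normalizer (N : Set G)) (hL : L ≤ Subgroup.normalizer (N : Set G)) :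
    N.Normal := by
  rw [← Subgroup.normalizer_eq_top_iff, eq_top_iff, ← htop]
  exact sup_le hV hL

/-- elements of `V ⊔ L` factor as `v * l` for normal `L` -/
theorem exists_mul_of_sup_top {V L : Subgroup G} (hL : L.Normal) (htop : V ⊔ L = ⊤) (g : G) :
    ∃ v ∈ V, ∃ l ∈ L, g = v * l := by
  have hg : g ∈ V ⊔ L := by rw [htop]; trivial
  have _hL' := hL
  rw [← SetLike.mem_coe, Subgroup.mul_normal] at hg
  obtain ⟨v, hv, l, hl, rfl⟩ := Set.mem_mul.mp hg
  exact ⟨v, hv, l, hl, rfl⟩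

end SidkiGen

end Cfsg.Agent.Lib.Helper56
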