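import Cfsg.Agent.Lib.Helper56.Sidki
import Cfsg.Agent.Lib.Helper55.Syl
import Cfsg.Agent.Lib.Helper55.SE
import Cfsg.Agent.Lib.Helper66.Cores
import Cfsg.Agent.Lib.Helper66.Components
import Cfsg.Agent.Lib.Helper66.Layer
import Cfsg.Agent.Lib.Helper77.MaxPrimeIdx
import Cfsg.Agent.Lib.Helper88.GrpSyl
import Cfsg.Agent.S3012
import Mathlib

set_option autoImplicit false
open Cfsg
open Cfsg.Agent.Lib.Helper55 (cj mem_cj cj_eq_self_of_mem_normalizer mem_normalizer_of_cj_eq cj_mul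
  cj_one cj_mono cj_normalizer cj_inv_cj cj_cj_inv cj_ne_bot)
open Cfsg.Agent.Lib.Helper88 (mem_normalizer_of_conj_le)

namespace Cfsg.Agent.Lib.Helper56

universe u

section SidkiMain

variable {G : Type u} [Group G]

theorem card_quot_lt [Finite G] {N : Subgroup G} [N.Normal] (hN : N ≠ ⊥) :
    Nat.card (G ⧸ N) < Nat.card G := by
  have h1 := Subgroup.card_eq_card_quotient_mul_card_subgroup N
  have h2 : 1 < Nat.card N := (Subgroup.one_lt_card_iff_ne_bot N).mpr hN
  have h3 : 0 < Nat.card (G ⧸ N) := Nat.card_pos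
  rw [h1]
  nlinarith

theorem sidki_elemAb_map {V : Subgroup G} (hV : IsElementaryAbelian 2 V) {H : Type*} [Group H]
    (f : G →* H) : IsElementaryAbelian 2 (V.map f) := by
  refine ⟨⟨⟨fun a b => ?_⟩⟩, fun a ha => ?_⟩
  · obtain ⟨x, hx, hxa⟩ := a.2
    obtain ⟨y, hy, hyb⟩ := b.2
    apply Subtype.ext
    show (a : H) * (b : H) = (b : H) * (a : H)
    rw [← hxa, ← hyb, ← map_mul, ← map_mul, elemAb_comm hV hx hy]
  · obtain ⟨x, hx, rfl⟩ := ha
    rw [← map_pow, hV.2 x hx, map_one]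

theorem map_ne_bot_of_inf {V N : Subgroup G} [N.Normal] (hV1 : V ≠ ⊥) (h : V ⊓ N = ⊥) :
    V.map (QuotientGroup.mk' N) ≠ ⊥ := by
  intro hb
  apply hV1
  rw [eq_bot_iff]
  intro v hv
  have h1 : QuotientGroup.mk' N v ∈ V.map (QuotientGroup.mk' N) := Subgroup.mem_map_of_mem _ hv
  rw [hb, Subgroup.mem_bot] at h1
  have h2 : v ∈ N := (QuotientGroup.eq_one_iff v).mp h1
  have h3 : v ∈ V ⊓ N := ⟨hv, h2⟩
  rw [h] at h3
  exact h3

theorem closure_comm {S : Set G} (hS : ∀ a ∈ S, ∀ b ∈ S, a * b = b * a) :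
    ∀ x ∈ Subgroup.closure S, ∀ y ∈ Subgroup.closure S, x * y = y * x := by
  have h1 : Subgroup.closure S ≤ Subgroup.centralizer S := by
    rw [Subgroup.closure_le]
    intro s hs
    rw [SetLike.mem_coe, Subgroup.mem_centralizer_iff]
    intro t ht
    exact hS t ht s hs
  have h3 : Subgroup.closure S ≤ Subgroup.centralizer (Subgroup.closure S : Set G) := by
    rw [Subgroup.closure_le]
    intro s hs
    rw [SetLike.mem_coe, Subgroup.mem_centralizer_iff]
    intro h hh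
    exact (Subgroup.mem_centralizer_iff.mp (h1 hh) s hs).symm
  intro x hx y hy
  exact Subgroup.mem_centralizer_iff.mp (h3 hy) x hx

theorem odd_mem_of_mem_sup {U L : Subgroup G} (hUL : U ≤ Subgroup.normalizer (L : Set G))
    (hU : ∀ u ∈ U, u * u = 1) {y : G} (hy : y ∈ U ⊔ L) (ho : Odd (orderOf y)) : y ∈ L := by
  rw [← SetLike.mem_coe, Subgroup.coe_mul_of_left_le_normalizer_right U L hUL] at hy
  obtain ⟨u₀, hu₀, l, hl, rfl⟩ := Set.mem_mul.mp hy
  apply mem_of_sq_mem ho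
  have e : u₀ * l * (u₀ * l) = (u₀ * l * u₀⁻¹) * (u₀ * u₀) * l := by group
  rw [e, hU u₀ hu₀, mul_one]
  exact mul_mem ((Subgroup.mem_normalizer_iff.mp (hUL hu₀) l).mp hl) hl

theorem comm_mem_of_sup_top {V L : Subgroup G} (hV : IsElementaryAbelian 2 V) (hL : L.Normal)
    (htop : V ⊔ L = ⊤) (a b : G) : a * b * a⁻¹ * b⁻¹ ∈ L := by
  obtain ⟨v₁, hv₁, l₁, hl₁, rfl⟩ := exists_mul_of_sup_top hL htop a
  obtain ⟨v₂, hv₂, l₂, hl₂, rfl⟩ := exists_mul_of_sup_top hL htop b
  have _hL' := hL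
  rw [← QuotientGroup.eq_one_iff]
  have e1 : ((l₁ : G) : G ⧸ L) = 1 := (QuotientGroup.eq_one_iff l₁).mpr hl₁
  have e2 : ((l₂ : G) : G ⧸ L) = 1 := (QuotientGroup.eq_one_iff l₂).mpr hl₂
  have e3 : ((v₁ : G) : G ⧸ L) * ((v₂ : G) : G ⧸ L) = ((v₂ : G) : G ⧸ L) * ((v₁ : G) : G ⧸ L) := by
    rw [← QuotientGroup.mk_mul, ← QuotientGroup.mk_mul, elemAb_comm hV hv₁ hv₂]
  simp only [QuotientGroup.mk_mul, QuotientGroup.mk_inv, e1, e2, mul_one]
  rw [e3]
  group

/-- a subgroup of the centre is normal -/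
theorem normal_of_le_center {N : Subgroup G} (h : N ≤ Subgroup.center G) : N.Normal := by
  constructor
  intro n hn g
  have := Subgroup.mem_center_iff.mp (h hn) g
  rw [this, mul_inv_cancel_right]
  exact hn

variable [Finite G]

/-- the bundle of hypotheses of a minimal counterexample, after `O_2(G) = 1` -/
structure SidkiMin (V : Subgroup G) : Prop where
  eab : IsElementaryAbelian 2 V
  ne : V ≠ ⊥
  sid : IsSidkiPair V
  core : pCore 2 G = ⊥
  minG : ∀ (H : Type u) [Group H] [Finite H] (W : Subgroup H), Nat.card H < Nat.card G →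
      IsElementaryAbelian 2 W → W ≠ ⊥ → IsSidkiPair W → W ⊓ pCore 2 H ≠ ⊥
  minV : ∀ W : Subgroup G, Nat.card W < Nat.card V → IsElementaryAbelian 2 W → W ≠ ⊥ →
      ¬ IsSidkiPair W

theorem sidki_pCore_bot (V : Subgroup G) (hV : IsElementaryAbelian 2 V) (hV1 : V ≠ ⊥)
    (hS : IsSidkiPair V) (hVO : V ⊓ pCore 2 G = ⊥)
    (hminG : ∀ (H : Type u) [Group H] [Finite H] (W : Subgroup H), Nat.card H < Nat.card G →
      IsElementaryAbelian 2 W → W ≠ ⊥ → IsSidkiPair W → W ⊓ pCore 2 H ≠ ⊥) :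
    pCore 2 G = ⊥ := by
  haveI : Fact (Nat.Prime 2) := ⟨Nat.prime_two⟩
  by_contra hne
  haveI hQn : (pCore 2 G).Normal := pCore_normal' 2 G
  have hcard : Nat.card (G ⧸ pCore 2 G) < Nat.card G := card_quot_lt hne
  have hW := Cfsg.Agent.S3012.result V (pCore 2 G) hV hV1 hS hVO
  have h1 := hminG (G ⧸ pCore 2 G) _ hcard (sidki_elemAb_map hV _) (map_ne_bot_of_inf hV1 hVO) hW
  rw [Cfsg.Agent.Lib.Helper77.pCore_quotient_pCore_eq_bot 2, inf_bot_eq] at h1
  exact h1 rfl

variable {V : Subgroup G}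

theorem sm_sub (h : SidkiMin V) {U H : Subgroup G} (hUH : U ≤ H) (hH : H ≠ ⊤) (hUV : U ≤ V)
    (hU1 : U ≠ ⊥) (hS : SidkiIn U H) : ∃ u ∈ U, u ≠ 1 ∧ u ∈ pCoreOf 2 H :=
  sidki_min_sub h.minG hUH hH (elemAb_of_le h.eab hUV) hU1 hS

theorem sm_normalClosure (h : SidkiMin V) : Subgroup.normalClosure (V : Set G) = ⊤ := by
  haveI : Fact (Nat.Prime 2) := ⟨Nat.prime_two⟩
  by_contra hne
  obtain ⟨u, huV, hu1, hu⟩ := sm_sub h Subgroup.le_normalClosure hne le_rfl h.ne
    (sidkiIn_of_sidki h.sid _)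
  have := pCoreOf_le_pCore_of_subnormal (p := 2)
    (Subgroup.normalClosure_normal (s := (V : Set G))).isSubnormal hu
  rw [h.core] at this
  exact hu1 (Subgroup.mem_bot.mp this)

theorem sm_not_central (h : SidkiMin V) {L : Subgroup G} (hL : IsMinNormal L) :
    ¬ V ≤ Subgroup.centralizer (L : Set G) := by
  haveI : Fact (Nat.Prime 2) := ⟨Nat.prime_two⟩
  intro hVc
  haveI hLn := hL.1
  have hcen : L ≤ Subgroup.center G := by
    have h1 : Subgroup.normalClosure (V : Set G) ≤ Subgroup.centralizer (L : Set G) :=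
      Subgroup.normalClosure_le_normal hVc
    rw [sm_normalClosure h] at h1
    intro l hl
    rw [Subgroup.mem_center_iff]
    intro g
    have := Subgroup.mem_centralizer_iff.mp (h1 (Subgroup.mem_top g)) l hl
    exact this.symm
  have hVL : V ⊓ L = ⊥ := by
    have hn : (V ⊓ L).Normal := normal_of_le_center (inf_le_right.trans hcen)
    have := le_pCore' _ hn ((sidki_elemAb_isPGroup h.eab).to_le inf_le_left)
    rw [h.core] at this
    exact le_bot_iff.mp this
  have hcard : Nat.card (G ⧸ L) < Nat.card G := card_quot_lt hL.2.1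
  have hW := Cfsg.Agent.S3012.result V L h.eab h.ne h.sid hVL
  have h1 := h.minG (G ⧸ L) _ hcard (sidki_elemAb_map h.eab _) (map_ne_bot_of_inf h.ne hVL) hW
  apply h1
  rw [eq_bot_iff]
  rintro y ⟨hy1, hy2⟩
  obtain ⟨v, hv, rfl⟩ := hy1
  suffices hv1 : v = 1 by
    rw [hv1, map_one]; exact Subgroup.mem_bot.mpr rfl
  have hTn : ((pCore 2 (G ⧸ L)).comap (QuotientGroup.mk' L)).Normal :=
    (pCore_normal' 2 (G ⧸ L)).comap _
  have hvT : v ∈ (pCore 2 (G ⧸ L)).comap (QuotientGroup.mk' L) := hy2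
  let f : ↥((pCore 2 (G ⧸ L)).comap (QuotientGroup.mk' L)) →* ↥(pCore 2 (G ⧸ L)) :=
    ((QuotientGroup.mk' L).comp (Subgroup.subtype _)).codRestrict _ (fun t => t.2)
  have hker : f.ker ≤ Subgroup.center ↥((pCore 2 (G ⧸ L)).comap (QuotientGroup.mk' L)) := by
    intro t ht
    rw [MonoidHom.mem_ker] at ht
    have ht' : (t : G) ∈ L := by
      have := congrArg Subtype.val ht
      exact (QuotientGroup.eq_one_iff (t : G)).mp this
    rw [Subgroup.mem_center_iff]
    intro s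
    apply Subtype.ext
    exact Subgroup.mem_center_iff.mp (hcen ht') (s : G)
  haveI hnil0 : Group.IsNilpotent ↥(pCore 2 (G ⧸ L)) :=
    IsPGroup.isNilpotent (pCore_isPGroup' 2)
  haveI hnil : Group.IsNilpotent ↥((pCore 2 (G ⧸ L)).comap (QuotientGroup.mk' L)) :=
    Subgroup.isNilpotent_of_ker_le_center f hker
  obtain ⟨P⟩ : Nonempty (Sylow 2 ↥((pCore 2 (G ⧸ L)).comap (QuotientGroup.mk' L))) := inferInstance
  have hPnorm : (P : Subgroup ↥((pCore 2 (G ⧸ L)).comap (QuotientGroup.mk' L))).Normal :=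
    inferInstance
  haveI hchar : (P : Subgroup ↥((pCore 2 (G ⧸ L)).comap (QuotientGroup.mk' L))).Characteristic :=
    Sylow.characteristic_of_normal P hPnorm
  haveI := hTn
  have hPn : ((P : Subgroup ↥((pCore 2 (G ⧸ L)).comap (QuotientGroup.mk' L))).map
      (Subgroup.subtype _)).Normal := ConjAct.normal_of_characteristic_of_normal
  have hPle := le_pCore' _ hPn (P.isPGroup'.map (Subgroup.subtype _))
  rw [h.core] at hPle
  have hvp : IsPGroup 2 (V.subgroupOf ((pCore 2 (G ⧸ L)).comap (QuotientGroup.mk' L))) :=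
    sidki_elemAb_isPGroup (elemAb_subgroupOf h.eab)
  obtain ⟨P', hP'⟩ := hvp.exists_le_sylow
  have hPP' : P' = P := by
    haveI := Sylow.unique_of_normal P hPnorm
    exact Subsingleton.elim _ _
  have hvP : (⟨v, hvT⟩ : ↥((pCore 2 (G ⧸ L)).comap (QuotientGroup.mk' L))) ∈
      (P : Subgroup ↥((pCore 2 (G ⧸ L)).comap (QuotientGroup.mk' L))) := by
    rw [← hPP']
    exact hP' (Subgroup.mem_subgroupOf.mpr hv)
  have hvmem : v ∈ (P : Subgroup ↥((pCore 2 (G ⧸ L)).comap (QuotientGroup.mk' L))).map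
      (Subgroup.subtype _) := ⟨⟨v, hvT⟩, hvP, rfl⟩
  exact Subgroup.mem_bot.mp (hPle hvmem)

/-- Step A: `G = V L` for every minimal normal subgroup `L` -/
theorem sm_sup_top (h : SidkiMin V) {L : Subgroup G} (hL : IsMinNormal L) : V ⊔ L = ⊤ := by
  by_contra hne
  have hLn := hL.1
  have hnormL : ∀ X : Subgroup G, X ≤ Subgroup.normalizer (L : Set G) := by
    intro X
    rw [Subgroup.normalizer_eq_top_iff.mpr hLn]
    exact le_top
  obtain ⟨w₀, hw₀V, hw₀1, hw₀⟩ := sm_sub h le_sup_left hne le_rfl h.ne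
    (sidkiIn_of_sidki h.sid _)
  have hw₀c := pCoreOf_centralizes h.core (le_sup_right : L ≤ V ⊔ L) (hnormL _)
    hLn.isSubnormal w₀ hw₀
  have hw₀W : w₀ ∈ V ⊓ Subgroup.centralizer (L : Set G) :=
    ⟨hw₀V, Subgroup.mem_centralizer_iff.mpr (fun x hx => (hw₀c x hx).symm)⟩
  have hW1 : V ⊓ Subgroup.centralizer (L : Set G) ≠ ⊥ := by
    intro hb
    rw [hb] at hw₀W
    exact hw₀1 (Subgroup.mem_bot.mp hw₀W)
  have hWV : ¬ V ≤ Subgroup.centralizer (L : Set G) := sm_not_central h hL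
  have hWlt : Nat.card ↥(V ⊓ Subgroup.centralizer (L : Set G)) < Nat.card V := by
    apply lt_of_le_of_ne (Subgroup.card_le_of_le inf_le_left)
    intro hc
    apply hWV
    have : V ⊓ Subgroup.centralizer (L : Set G) = V :=
      Subgroup.eq_of_le_of_card_ge inf_le_left hc.ge
    rw [← this]; exact inf_le_right
  have hnS := h.minV _ hWlt (elemAb_of_le h.eab inf_le_left) hW1
  unfold IsSidkiPair at hnS
  push Not at hnS
  obtain ⟨x, v, hvW, hxo, hinv, hnc⟩ := hnS
  have hvc : ∀ y ∈ L, v * y * v⁻¹ = y := by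
    intro y hy
    have := Subgroup.mem_centralizer_iff.mp hvW.2 y hy
    rw [← this, mul_inv_cancel_right]
  -- `x` centralizes `L`
  have hxL : ∀ l ∈ L, Commute x l := by
    intro l hl
    have hy : x * l * x⁻¹ ∈ L := hLn.conj_mem l hl x
    have h1 := hvc _ hy
    have h2 : v * (x * l * x⁻¹) * v⁻¹ = (v * x * v⁻¹) * (v * l * v⁻¹) * (v * x * v⁻¹)⁻¹ := by
      group
    rw [h2, hinv, hvc l hl, inv_inv] at h1
    have h3 : Commute (x * x) l := by
      show x * x * l = l * (x * x)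
      have e : x * x * l = x * (x * l * x⁻¹) * x := by group
      rw [e, ← h1]; group
    exact commute_of_sq_commute hxo h3
  obtain ⟨u₁, hu₁V, hu₁1, hu₁c⟩ := h.sid x v hvW.1 hxo hinv
  have hU1 : V ⊓ Subgroup.centralizer ({x} : Set G) ≠ ⊥ := by
    intro hb
    have : u₁ ∈ V ⊓ Subgroup.centralizer ({x} : Set G) := by
      refine Subgroup.mem_inf.mpr ⟨hu₁V, ?_⟩
      rw [Subgroup.mem_centralizer_iff]
      rintro _ rfl
      exact hu₁c.symm
    rw [hb] at this
    exact hu₁1 (Subgroup.mem_bot.mp this)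
  have hUx : ∀ u ∈ V ⊓ Subgroup.centralizer ({x} : Set G), Commute u x := by
    intro u hu
    have := Subgroup.mem_centralizer_iff.mp hu.2 x rfl
    exact this.symm
  have hSid : SidkiIn (V ⊓ Subgroup.centralizer ({x} : Set G))
      (V ⊓ Subgroup.centralizer ({x} : Set G) ⊔ L) := by
    intro y hy u' hu' hyo hyinv
    have hyL : y ∈ L := odd_mem_of_mem_sup (hnormL _)
      (fun u hu => elemAb_sq h.eab (Subgroup.mem_inf.mp hu).1) hy hyo
    have hxy : Commute x y := hxL y hyL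
    have hodd : Odd (orderOf (x * y)) := odd_orderOf_mul hxy hxo hyo
    have hux : u' * x * u'⁻¹ = x := by
      rw [(hUx u' hu').eq, mul_inv_cancel_right]
    have hinv2 : (v * u') * (x * y) * (v * u')⁻¹ = (x * y)⁻¹ := by
      calc (v * u') * (x * y) * (v * u')⁻¹
          = v * ((u' * x * u'⁻¹) * (u' * y * u'⁻¹)) * v⁻¹ := by group
        _ = v * (x * y⁻¹) * v⁻¹ := by rw [hux, hyinv]
        _ = (v * x * v⁻¹) * (v * y⁻¹ * v⁻¹) := by group
        _ = x⁻¹ * y⁻¹ := by rw [hinv, hvc y⁻¹ (inv_mem hyL)]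
        _ = (x * y)⁻¹ := by rw [hxy.eq, mul_inv_rev]
    obtain ⟨u₂, hu₂V, hu₂1, hu₂c⟩ := h.sid (x * y) (v * u') (mul_mem hvW.1 hu'.1) hodd hinv2
    have hvconj : v * (x * y) * v⁻¹ = x⁻¹ * y := by
      have e : v * (x * y) * v⁻¹ = (v * x * v⁻¹) * (v * y * v⁻¹) := by group
      rw [e, hinv, hvc y hyL]
    have hc_uv : Commute u₂ v := elemAb_comm h.eab hu₂V hvW.1
    have hc1 : Commute u₂ (x * y) := hu₂c
    have hc2 : Commute u₂ (x⁻¹ * y) := by
      rw [← hvconj]
      exact (hc_uv.mul_right hc1).mul_right hc_uv.inv_right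
    have e : (x * y) * (x⁻¹ * y) = y * y := by rw [hxy.eq]; group
    have hc3 : Commute u₂ (y * y) := by
      rw [← e]; exact hc1.mul_right hc2
    have hc4 : Commute u₂ y := (commute_of_sq_commute hyo hc3.symm).symm
    have hc5 : Commute u₂ x := by
      have e2 : x = x * y * y⁻¹ := by group
      rw [e2]; exact hc1.mul_right hc4.inv_right
    refine ⟨u₂, Subgroup.mem_inf.mpr ⟨hu₂V, ?_⟩, hu₂1, hc4.eq⟩
    rw [Subgroup.mem_centralizer_iff]
    rintro _ rfl
    exact hc5.eq.symm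
  have hUL : V ⊓ Subgroup.centralizer ({x} : Set G) ⊔ L ≠ ⊤ := by
    intro ht
    apply hne
    rw [eq_top_iff, ← ht]
    exact sup_le_sup_right inf_le_left L
  obtain ⟨u, huU, hu1, hu⟩ := sm_sub h le_sup_left hUL inf_le_left hU1 hSid
  have huc := pCoreOf_centralizes h.core
    (le_sup_right : L ≤ V ⊓ Subgroup.centralizer ({x} : Set G) ⊔ L) (hnormL _)
    hLn.isSubnormal u hu
  have huW : u ∈ V ⊓ Subgroup.centralizer (L : Set G) :=
    ⟨huU.1, Subgroup.mem_centralizer_iff.mpr (fun l hl => (huc l hl).symm)⟩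
  exact hnc u huW hu1 (hUx u huU).eq

/-- Step B: minimal normal subgroups are not abelian -/
theorem sm_nonabelian (h : SidkiMin V) {L : Subgroup G} (hL : IsMinNormal L) :
    ¬ ∀ x ∈ L, ∀ y ∈ L, x * y = y * x := by
  haveI : Fact (Nat.Prime 2) := ⟨Nat.prime_two⟩
  intro hab
  have htop := sm_sup_top h hL
  have hLn := hL.1
  have hCV : ∀ v ∈ V, (∀ x ∈ L, v * x = x * v) → v = 1 := by
    have hn : (V ⊓ Subgroup.centralizer (L : Set G)).Normal := by
      apply normal_of_sup_top htop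
      · intro v' hv'
        apply mem_normalizer_of_conj_le
        intro x hx
        obtain ⟨hx1, hx2⟩ := Subgroup.mem_inf.mp hx
        have e : v' * x * v'⁻¹ = x := by rw [elemAb_comm h.eab hv' hx1, mul_inv_cancel_right]
        rw [e]; exact Subgroup.mem_inf.mpr ⟨hx1, hx2⟩
      · intro l hl
        apply mem_normalizer_of_conj_le
        intro x hx
        obtain ⟨hx1, hx2⟩ := Subgroup.mem_inf.mp hx
        have hxl : l * x = x * l := Subgroup.mem_centralizer_iff.mp hx2 l hl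
        have e : l * x * l⁻¹ = x := by rw [hxl, mul_inv_cancel_right]
        rw [e]; exact Subgroup.mem_inf.mpr ⟨hx1, hx2⟩
    have hle := le_pCore' _ hn ((sidki_elemAb_isPGroup h.eab).to_le inf_le_left)
    rw [h.core] at hle
    intro v hv hc
    have : v ∈ V ⊓ Subgroup.centralizer (L : Set G) := by
      refine Subgroup.mem_inf.mpr ⟨hv, ?_⟩
      rw [Subgroup.mem_centralizer_iff]
      intro x hx
      exact (hc x hx).symm
    exact Subgroup.mem_bot.mp (hle this)
  have key : ∀ v ∈ V, v ≠ 1 → (∀ x ∈ L, v * x * v⁻¹ = x⁻¹) ∧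
      (∀ x ∈ L, v * x = x * v → x = 1) := by
    intro v hv hv1
    have hLpn : (L ⊓ Subgroup.centralizer ({v} : Set G)).Normal := by
      apply normal_of_sup_top htop
      · intro v' hv'
        apply mem_normalizer_of_conj_le
        intro x hx
        obtain ⟨hx1, hx2⟩ := Subgroup.mem_inf.mp hx
        refine Subgroup.mem_inf.mpr ⟨hLn.conj_mem x hx1 v', ?_⟩
        rw [Subgroup.mem_centralizer_iff] at hx2 ⊢
        intro y0 hy0
        rw [Set.mem_singleton_iff.mp hy0]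
        have c1 : Commute v v' := elemAb_comm h.eab hv hv'
        have c2 : Commute v x := hx2 v rfl
        exact ((c1.mul_right c2).mul_right c1.inv_right).eq
      · intro l hl
        apply mem_normalizer_of_conj_le
        intro x hx
        obtain ⟨hx1, hx2⟩ := Subgroup.mem_inf.mp hx
        have e : l * x * l⁻¹ = x := by rw [hab l hl x hx1, mul_inv_cancel_right]
        rw [e]; exact Subgroup.mem_inf.mpr ⟨hx1, hx2⟩
    have hbot : L ⊓ Subgroup.centralizer ({v} : Set G) = ⊥ := by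
      by_contra hbot
      have hle := hL.2.2 _ hLpn hbot inf_le_left
      apply hv1
      apply hCV v hv
      intro x hx
      have := (Subgroup.mem_inf.mp (hle hx)).2
      rw [Subgroup.mem_centralizer_iff] at this
      exact this v rfl
    constructor
    · intro x hx
      have hmem : x * (v * x * v⁻¹) ∈ L ⊓ Subgroup.centralizer ({v} : Set G) := by
        refine Subgroup.mem_inf.mpr ⟨mul_mem hx (hLn.conj_mem x hx v), ?_⟩
        rw [Subgroup.mem_centralizer_iff]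
        intro y0 hy0
        rw [Set.mem_singleton_iff.mp hy0]
        have hvv := elemAb_sq h.eab hv
        have hc := hab x hx (v * x * v⁻¹) (hLn.conj_mem x hx v)
        calc v * (x * (v * x * v⁻¹)) = (v * x * v⁻¹) * ((v * v) * x * (v * v)⁻¹) * v := by group
          _ = (v * x * v⁻¹) * x * v := by rw [hvv, one_mul, inv_one, mul_one]
          _ = x * (v * x * v⁻¹) * v := by rw [← hc]
      rw [hbot, Subgroup.mem_bot] at hmem
      exact eq_inv_of_mul_eq_one_right hmem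
    · intro x hx hc
      have hmem : x ∈ L ⊓ Subgroup.centralizer ({v} : Set G) := by
        refine Subgroup.mem_inf.mpr ⟨hx, ?_⟩
        rw [Subgroup.mem_centralizer_iff]
        intro y0 hy0
        rw [Set.mem_singleton_iff.mp hy0]
        exact hc
      rw [hbot] at hmem
      exact Subgroup.mem_bot.mp hmem
  obtain ⟨⟨v, hv⟩, hv1'⟩ := (Subgroup.ne_bot_iff_exists_ne_one).mp h.ne
  have hv1 : v ≠ 1 := fun e => hv1' (Subtype.ext e)
  obtain ⟨⟨x, hx⟩, hx1'⟩ := (Subgroup.ne_bot_iff_exists_ne_one).mp hL.2.1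
  have hx1 : x ≠ 1 := fun e => hx1' (Subtype.ext e)
  have hodd : Odd (orderOf x) := by
    by_contra hne
    rw [Nat.not_odd_iff_even] at hne
    obtain ⟨m, hm⟩ := hne
    have hpos : 0 < orderOf x := orderOf_pos x
    have hm0 : m ≠ 0 := by omega
    have hy1 : x ^ m ≠ 1 := pow_ne_one_of_lt_orderOf hm0 (by omega)
    have hyy : x ^ m * x ^ m = 1 := by
      rw [← pow_add, ← hm, pow_orderOf_eq_one]
    have hyL : x ^ m ∈ L := pow_mem hx m
    have h1 := (key v hv hv1).1 (x ^ m) hyL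
    have h2 : (x ^ m)⁻¹ = x ^ m := inv_eq_of_mul_eq_one_left hyy
    rw [h2] at h1
    have h3 : v * x ^ m = x ^ m * v := mul_inv_eq_iff_eq_mul.mp h1
    exact hy1 ((key v hv hv1).2 _ hyL h3)
  obtain ⟨w, hw, hw1, hwc⟩ := h.sid x v hv hodd ((key v hv hv1).1 x hx)
  exact hx1 ((key w hw hw1).2 x hx hwc)

/-- Step C: minimal normal subgroups have trivial centralizer -/
theorem sm_centralizer_bot (h : SidkiMin V) {L : Subgroup G} (hL : IsMinNormal L) :
    Subgroup.centralizer (L : Set G) = ⊥ := by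
  have htop := sm_sup_top h hL
  have hnab := sm_nonabelian h hL
  haveI := hL.1
  have hCn : (Subgroup.centralizer (L : Set G)).Normal := Subgroup.normal_centralizer
  have hZ : L ⊓ Subgroup.centralizer (L : Set G) = ⊥ := by
    by_contra hne
    have hn : (L ⊓ Subgroup.centralizer (L : Set G)).Normal := Subgroup.normal_inf_normal _ _
    have hle := hL.2.2 _ hn hne inf_le_left
    apply hnab
    intro x hx y hy
    exact Subgroup.mem_centralizer_iff.mp (Subgroup.mem_inf.mp (hle hy)).2 x hx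
  by_contra hCne
  obtain ⟨L', hL', hL'C⟩ := exists_minNormal_le hCn hCne
  have htop' := sm_sup_top h hL'
  have hLL' : L ⊓ L' = ⊥ := by
    have : L ⊓ L' ≤ L ⊓ Subgroup.centralizer (L : Set G) := inf_le_inf_left L hL'C
    rw [hZ] at this
    exact le_bot_iff.mp this
  apply hnab
  intro x hx y hy
  have h1 : x * y * x⁻¹ * y⁻¹ ∈ L := mul_mem (mul_mem (mul_mem hx hy) (inv_mem hx)) (inv_mem hy)
  have h2 : x * y * x⁻¹ * y⁻¹ ∈ L' := comm_mem_of_sup_top h.eab hL'.1 htop' x y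
  have h3 : x * y * x⁻¹ * y⁻¹ ∈ L ⊓ L' := ⟨h1, h2⟩
  rw [hLL', Subgroup.mem_bot] at h3
  have h4 : x * y * x⁻¹ = y := mul_inv_eq_one.mp h3
  exact mul_inv_eq_iff_eq_mul.mp h4

/-- minimal among the nontrivial subgroups normalized by `L` -/
def IsMinNormalIn (M L : Subgroup G) : Prop :=
  M ≤ L ∧ L ≤ Subgroup.normalizer (M : Set G) ∧ M ≠ ⊥ ∧
    ∀ N : Subgroup G, N ≤ M → L ≤ Subgroup.normalizer (N : Set G) → N ≠ ⊥ → M ≤ N

omit [Finite G] in
theorem mni_cj {M L : Subgroup G} (hL : L.Normal) (hM : IsMinNormalIn M L) (g : G) :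
    IsMinNormalIn (cj g M) L := by
  have hLg : ∀ g : G, cj g L = L := fun g =>
    cj_eq_self_of_mem_normalizer (by rw [Subgroup.normalizer_eq_top_iff.mpr hL]; trivial)
  refine ⟨?_, ?_, cj_ne_bot hM.2.2.1, ?_⟩
  · have := cj_mono (g := g) hM.1
    rwa [hLg g] at this
  · have := cj_mono (g := g) hM.2.1
    rwa [hLg g, cj_normalizer] at this
  · intro N hN hLN hN1
    have h1 : cj g⁻¹ N ≤ M := by
      have := cj_mono (g := g⁻¹) hN
      rwa [cj_inv_cj] at this
    have h2 : L ≤ Subgroup.normalizer ((cj g⁻¹ N : Subgroup G) : Set G) := by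
      have := cj_mono (g := g⁻¹) hLN
      rwa [hLg g⁻¹, cj_normalizer] at this
    have h3 := hM.2.2.2 _ h1 h2 (cj_ne_bot hN1)
    have := cj_mono (g := g) h3
    rwa [cj_cj_inv] at this

omit [Finite G] in
theorem mni_eq_or_disjoint {M₁ M₂ L : Subgroup G} (h1 : IsMinNormalIn M₁ L)
    (h2 : IsMinNormalIn M₂ L) : M₁ = M₂ ∨ M₁ ⊓ M₂ = ⊥ := by
  by_cases hb : M₁ ⊓ M₂ = ⊥
  · exact Or.inr hb
  · left
    have hn : L ≤ Subgroup.normalizer ((M₁ ⊓ M₂ : Subgroup G) : Set G) :=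
      le_trans (le_inf h1.2.1 h2.2.1) Subgroup.inf_normalizer_le_normalizer_inf
    have ha := h1.2.2.2 _ inf_le_left hn hb
    have hb' := h2.2.2.2 _ inf_le_right hn hb
    exact le_antisymm (ha.trans inf_le_right) (hb'.trans inf_le_left)

omit [Finite G] in
theorem mni_commute {M₁ M₂ L : Subgroup G} (h1 : IsMinNormalIn M₁ L) (h2 : IsMinNormalIn M₂ L)
    (hd : M₁ ⊓ M₂ = ⊥) {a b : G} (ha : a ∈ M₁) (hb : b ∈ M₂) : a * b = b * a := by
  have hmem : a * b * a⁻¹ * b⁻¹ ∈ M₁ ⊓ M₂ := by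
    refine Subgroup.mem_inf.mpr ⟨?_, ?_⟩
    · have : b * a⁻¹ * b⁻¹ ∈ M₁ :=
        (Subgroup.mem_normalizer_iff.mp (h1.2.1 (h2.1 hb)) a⁻¹).mp (inv_mem ha)
      have e : a * b * a⁻¹ * b⁻¹ = a * (b * a⁻¹ * b⁻¹) := by group
      rw [e]; exact mul_mem ha this
    · have : a * b * a⁻¹ ∈ M₂ := (Subgroup.mem_normalizer_iff.mp (h2.2.1 (h1.1 ha)) b).mp hb
      exact mul_mem this (inv_mem hb)
  rw [hd, Subgroup.mem_bot] at hmem
  exact mul_inv_eq_iff_eq_mul.mp (mul_inv_eq_one.mp hmem)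

/-- Step D: a minimal normal subgroup is simple -/
theorem sm_simple (h : SidkiMin V) {L : Subgroup G} (hL : IsMinNormal L) :
    ∀ N : Subgroup G, N ≤ L → L ≤ Subgroup.normalizer (N : Set G) → N = ⊥ ∨ N = L := by
  haveI : Fact (Nat.Prime 2) := ⟨Nat.prime_two⟩
  by_contra hcon
  push Not at hcon
  obtain ⟨N₀, hN₀L, hN₀n, hN₀1, hN₀L'⟩ := hcon
  have htop := sm_sup_top h hL
  have hnab := sm_nonabelian h hL
  have hCL := sm_centralizer_bot h hL
  have hLn := hL.1
  have hfin : {N : Subgroup G | N ≤ N₀ ∧ L ≤ Subgroup.normalizer (N : Set G) ∧ N ≠ ⊥}.Finite :=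
    Set.toFinite _
  obtain ⟨L₁, ⟨hL₁N₀, hL₁n, hL₁1⟩, hmin⟩ := hfin.exists_minimal ⟨N₀, le_rfl, hN₀n, hN₀1⟩
  have hL₁L : L₁ ≤ L := hL₁N₀.trans hN₀L
  have hL₁ne : L₁ ≠ L := fun e => hN₀L' (le_antisymm hN₀L (e ▸ hL₁N₀))
  have hM : IsMinNormalIn L₁ L :=
    ⟨hL₁L, hL₁n, hL₁1, fun N h1 h2 h3 => hmin ⟨h1.trans hL₁N₀, h2, h3⟩ h1⟩
  have hMc : ∀ g : G, IsMinNormalIn (cj g L₁) L := fun g => mni_cj hLn hM g
  have hnotn : ¬ L₁.Normal := fun hn => hL₁ne (le_antisymm hL₁L (hL.2.2 L₁ hn hL₁1 hL₁L))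
  -- every conjugate of an element of `L₁` lies in a `V`-conjugate of `L₁`
  have hgen : ∀ a ∈ Group.conjugatesOfSet (L₁ : Set G), ∃ v ∈ V, a ∈ cj v L₁ := by
    intro a ha
    rw [Group.mem_conjugatesOfSet_iff] at ha
    obtain ⟨b, hb, hab⟩ := ha
    obtain ⟨g, rfl⟩ := isConj_iff.mp hab
    obtain ⟨v, hv, l, hl, rfl⟩ := exists_mul_of_sup_top hLn htop g
    refine ⟨v, hv, ?_⟩
    rw [mem_cj]
    have e : v⁻¹ * (v * l * b * (v * l)⁻¹) * v = l * b * l⁻¹ := by group
    rw [e]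
    exact (Subgroup.mem_normalizer_iff.mp (hL₁n hl) b).mp hb
  have hJ : Subgroup.normalClosure (L₁ : Set G) = L := by
    haveI := hLn
    apply le_antisymm (Subgroup.normalClosure_le_normal hL₁L)
    apply hL.2.2 _ Subgroup.normalClosure_normal _ (Subgroup.normalClosure_le_normal hL₁L)
    intro hb
    apply hL₁1
    rw [eq_bot_iff, ← hb]
    exact Subgroup.le_normalClosure
  -- `L₁` is nonabelian
  have hL₁nab : ¬ ∀ a ∈ L₁, ∀ b ∈ L₁, a * b = b * a := by
    intro hab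
    apply hnab
    have hcomm : ∀ a ∈ Group.conjugatesOfSet (L₁ : Set G),
        ∀ b ∈ Group.conjugatesOfSet (L₁ : Set G), a * b = b * a := by
      intro a ha b hb
      obtain ⟨v, hv, hav⟩ := hgen a ha
      obtain ⟨v', hv', hbv'⟩ := hgen b hb
      rcases mni_eq_or_disjoint (hMc v) (hMc v') with heq | hd
      · rw [← heq] at hbv'
        rw [mem_cj] at hav hbv'
        have := hab _ hav _ hbv'
        have e1 : a * b = v * ((v⁻¹ * a * v) * (v⁻¹ * b * v)) * v⁻¹ := by group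
        rw [e1, this]; group
      · exact mni_commute (hMc v) (hMc v') hd hav hbv'
    have := closure_comm hcomm
    rw [← hJ]
    exact this
  -- `Z(L₁) = 1`
  have hZ₁ : L₁ ⊓ Subgroup.centralizer (L₁ : Set G) = ⊥ := by
    by_contra hne
    have hn : L ≤ Subgroup.normalizer
        ((L₁ ⊓ Subgroup.centralizer (L₁ : Set G) : Subgroup G) : Set G) := by
      intro l hl
      apply mem_normalizer_of_conj_le
      intro z hz
      obtain ⟨hz1, hz2⟩ := Subgroup.mem_inf.mp hz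
      refine Subgroup.mem_inf.mpr ⟨(Subgroup.mem_normalizer_iff.mp (hL₁n hl) z).mp hz1, ?_⟩
      rw [Subgroup.mem_centralizer_iff]
      intro m hm
      have hm' : l⁻¹ * m * l ∈ L₁ := by
        have := (Subgroup.mem_normalizer_iff.mp (hL₁n (inv_mem hl)) m).mp hm
        simpa using this
      have hc : (l⁻¹ * m * l) * z = z * (l⁻¹ * m * l) :=
        Subgroup.mem_centralizer_iff.mp hz2 _ hm'
      have e1 : m * (l * z * l⁻¹) = l * ((l⁻¹ * m * l) * z) * l⁻¹ := by group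
      rw [e1, hc]; group
    have hle := hM.2.2.2 _ inf_le_left hn hne
    apply hL₁nab
    intro a ha b hb
    exact Subgroup.mem_centralizer_iff.mp (Subgroup.mem_inf.mp (hle hb)).2 a ha
  have hL₁sn : L₁.IsSubnormal :=
    Subgroup.IsSubnormal.trans hL₁L
      (Subgroup.normal_subgroupOf_of_le_normalizer hL₁n).isSubnormal hLn.isSubnormal
  -- an element of odd order
  obtain ⟨x₀, hx₀, hx₀1, hx₀o⟩ : ∃ x₀ ∈ L₁, x₀ ≠ 1 ∧ Odd (orderOf x₀) := by
    have hnp : ¬ IsPGroup 2 L₁ := by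
      intro hp
      have := Cfsg.Agent.Lib.Helper30.le_pCore_of_subnormal hL₁sn hp
      rw [h.core] at this
      exact hL₁1 (le_bot_iff.mp this)
    unfold IsPGroup at hnp
    push Not at hnp
    obtain ⟨g, hg⟩ := hnp
    obtain ⟨k, m, hm, hkm⟩ := Nat.exists_eq_two_pow_mul_odd (orderOf_pos (g : G)).ne'
    refine ⟨(g : G) ^ 2 ^ k, pow_mem g.2 _, ?_, ?_⟩
    · intro h1
      apply hg k
      apply Subtype.ext
      simpa using h1
    · have h1 : ((g : G) ^ 2 ^ k) ^ m = 1 := by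
        rw [← pow_mul, ← hkm, pow_orderOf_eq_one]
      exact Odd.of_dvd_nat hm (orderOf_dvd_of_pow_eq_one h1)
  -- some element of `V` does not normalize `L₁`
  obtain ⟨v, hv, hvn⟩ : ∃ v ∈ V, v ∉ Subgroup.normalizer (L₁ : Set G) := by
    by_contra hcon
    push Not at hcon
    exact hnotn (normal_of_sup_top htop hcon hL₁n)
  have hvv := elemAb_sq h.eab hv
  have hcjv : cj v L₁ ≠ L₁ := fun e => hvn (mem_normalizer_of_cj_eq e)
  have hdv : L₁ ⊓ cj v L₁ = ⊥ := by
    rcases mni_eq_or_disjoint hM (hMc v) with he | hd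
    · exact absurd he.symm hcjv
    · exact hd
  -- `N_V(L₁) ≠ 1`
  obtain ⟨u₀, hu₀V, hu₀1, hu₀n⟩ : ∃ u ∈ V, u ≠ 1 ∧ u ∈ Subgroup.normalizer (L₁ : Set G) := by
    have hyM : v * x₀ * v⁻¹ ∈ cj v L₁ := by
      rw [mem_cj]
      have e : v⁻¹ * (v * x₀ * v⁻¹) * v = x₀ := by group
      rw [e]; exact hx₀
    have hc : Commute x₀ (v * x₀ * v⁻¹) := mni_commute hM (hMc v) hdv hx₀ hyM
    have hho : Odd (orderOf (x₀⁻¹ * (v * x₀ * v⁻¹))) :=
      odd_orderOf_mul hc.inv_left (odd_orderOf_inv hx₀o) (odd_orderOf_conj v hx₀o)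
    have hhinv : v * (x₀⁻¹ * (v * x₀ * v⁻¹)) * v⁻¹ = (x₀⁻¹ * (v * x₀ * v⁻¹))⁻¹ := by
      have e1 : v * (x₀⁻¹ * (v * x₀ * v⁻¹)) * v⁻¹ =
          (v * x₀ * v⁻¹)⁻¹ * ((v * v) * x₀ * (v * v)⁻¹) := by group
      have e2 : (x₀⁻¹ * (v * x₀ * v⁻¹))⁻¹ = (v * x₀ * v⁻¹)⁻¹ * x₀ := by group
      rw [e1, e2, hvv, one_mul, inv_one, mul_one]
    have hh1 : x₀⁻¹ * (v * x₀ * v⁻¹) ≠ 1 := by
      intro e
      have e2 : x₀ = v * x₀ * v⁻¹ := inv_mul_eq_one.mp e
      have : x₀ ∈ L₁ ⊓ cj v L₁ := Subgroup.mem_inf.mpr ⟨hx₀, by rw [e2]; exact hyM⟩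
      rw [hdv] at this
      exact hx₀1 (Subgroup.mem_bot.mp this)
    obtain ⟨u, hu, hu1, huc⟩ := h.sid _ v hv hho hhinv
    by_cases hun : u ∈ Subgroup.normalizer (L₁ : Set G)
    · exact ⟨u, hu, hu1, hun⟩
    by_cases huv : cj (u * v) L₁ = L₁
    · refine ⟨u * v, mul_mem hu hv, ?_, mem_normalizer_of_cj_eq huv⟩
      intro e
      have huv' : u = v := by
        have := eq_inv_of_mul_eq_one_left e
        rw [this, elemAb_inv h.eab hv]
      rw [huv'] at huc
      have e3 : v * (x₀⁻¹ * (v * x₀ * v⁻¹)) * v⁻¹ = x₀⁻¹ * (v * x₀ * v⁻¹) := by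
        rw [huc, mul_inv_cancel_right]
      rw [e3] at hhinv
      have e4 : (x₀⁻¹ * (v * x₀ * v⁻¹)) * (x₀⁻¹ * (v * x₀ * v⁻¹)) = 1 := by
        have e5 : (x₀⁻¹ * (v * x₀ * v⁻¹)) * (x₀⁻¹ * (v * x₀ * v⁻¹))⁻¹ = 1 := mul_inv_cancel _
        rwa [← hhinv] at e5
      exact hh1 (eq_one_of_sq_of_odd hho e4)
    · exfalso
      have hcju : cj u L₁ ≠ L₁ := fun e => hun (mem_normalizer_of_cj_eq e)
      have hdu : L₁ ⊓ cj u L₁ = ⊥ := by
        rcases mni_eq_or_disjoint hM (hMc u) with he | hd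
        · exact absurd he.symm hcju
        · exact hd
      have hduv : L₁ ⊓ cj (u * v) L₁ = ⊥ := by
        rcases mni_eq_or_disjoint hM (hMc (u * v)) with he | hd
        · exact absurd he.symm huv
        · exact hd
      have ha : u * x₀⁻¹ * u⁻¹ ∈ cj u L₁ := by
        rw [mem_cj]
        have e : u⁻¹ * (u * x₀⁻¹ * u⁻¹) * u = x₀⁻¹ := by group
        rw [e]; exact inv_mem hx₀
      have hb : u * (v * x₀ * v⁻¹) * u⁻¹ ∈ cj (u * v) L₁ := by
        rw [mem_cj]
        have e : (u * v)⁻¹ * (u * (v * x₀ * v⁻¹) * u⁻¹) * (u * v) = x₀ := by group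
        rw [e]; exact hx₀
      have hconj : x₀⁻¹ * (v * x₀ * v⁻¹) =
          (u * x₀⁻¹ * u⁻¹) * (u * (v * x₀ * v⁻¹) * u⁻¹) := by
        have e : (u * x₀⁻¹ * u⁻¹) * (u * (v * x₀ * v⁻¹) * u⁻¹) =
            u * (x₀⁻¹ * (v * x₀ * v⁻¹)) * u⁻¹ := by group
        rw [e, huc, mul_inv_cancel_right]
      have hx₀c : x₀ ∈ L₁ ⊓ Subgroup.centralizer (L₁ : Set G) := by
        refine Subgroup.mem_inf.mpr ⟨hx₀, ?_⟩
        rw [Subgroup.mem_centralizer_iff]
        intro m hm
        have c1 : Commute m (u * x₀⁻¹ * u⁻¹) := mni_commute hM (hMc u) hdu hm ha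
        have c2 : Commute m (u * (v * x₀ * v⁻¹) * u⁻¹) :=
          mni_commute hM (hMc (u * v)) hduv hm hb
        have c3 : Commute m (x₀⁻¹ * (v * x₀ * v⁻¹)) := by rw [hconj]; exact c1.mul_right c2
        have c4 : Commute m (v * x₀ * v⁻¹) := mni_commute hM (hMc v) hdv hm hyM
        have c5 : Commute m x₀⁻¹ := by
          have e : x₀⁻¹ = (x₀⁻¹ * (v * x₀ * v⁻¹)) * (v * x₀ * v⁻¹)⁻¹ := by group
          rw [e]; exact c3.mul_right c4.inv_right
        have c6 : Commute m x₀ := by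
          have := c5.inv_right
          rwa [inv_inv] at this
        exact c6.eq
      rw [hZ₁] at hx₀c
      exact hx₀1 (Subgroup.mem_bot.mp hx₀c)
  -- the relative Sidki condition
  have hSid : SidkiIn (V ⊓ Subgroup.normalizer (L₁ : Set G))
      (V ⊓ Subgroup.normalizer (L₁ : Set G) ⊔ L₁) := by
    intro y hy u' hu' hyo hyinv
    have hyL : y ∈ L₁ := odd_mem_of_mem_sup inf_le_right
      (fun u hu => elemAb_sq h.eab (Subgroup.mem_inf.mp hu).1) hy hyo
    by_cases hy1 : y = 1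
    · exact ⟨u₀, Subgroup.mem_inf.mpr ⟨hu₀V, hu₀n⟩, hu₀1, by rw [hy1, mul_one, one_mul]⟩
    · obtain ⟨w, hw, hw1, hwc⟩ := h.sid y u' (Subgroup.mem_inf.mp hu').1 hyo hyinv
      refine ⟨w, Subgroup.mem_inf.mpr ⟨hw, ?_⟩, hw1, hwc⟩
      apply mem_normalizer_of_cj_eq
      rcases mni_eq_or_disjoint hM (hMc w) with he | hd
      · exact he.symm
      · exfalso
        have : y ∈ L₁ ⊓ cj w L₁ := by
          refine Subgroup.mem_inf.mpr ⟨hyL, ?_⟩
          rw [mem_cj]
          have e : w⁻¹ * y * w = y := by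
            rw [mul_assoc, ← hwc, ← mul_assoc, inv_mul_cancel, one_mul]
          rw [e]; exact hyL
        rw [hd] at this
        exact hy1 (Subgroup.mem_bot.mp this)
  have hne : V ⊓ Subgroup.normalizer (L₁ : Set G) ⊔ L₁ ≠ ⊤ := by
    intro ht
    apply hnotn
    rw [← Subgroup.normalizer_eq_top_iff, eq_top_iff, ← ht]
    exact sup_le inf_le_right Subgroup.le_normalizer
  have hV₁1 : V ⊓ Subgroup.normalizer (L₁ : Set G) ≠ ⊥ := by
    intro hb
    have : u₀ ∈ V ⊓ Subgroup.normalizer (L₁ : Set G) := Subgroup.mem_inf.mpr ⟨hu₀V, hu₀n⟩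
    rw [hb] at this
    exact hu₀1 (Subgroup.mem_bot.mp this)
  obtain ⟨u, huU, hu1, hu⟩ := sm_sub h le_sup_left hne inf_le_left hV₁1 hSid
  have huc := pCoreOf_centralizes h.core
    (le_sup_right : L₁ ≤ V ⊓ Subgroup.normalizer (L₁ : Set G) ⊔ L₁)
    (sup_le inf_le_right Subgroup.le_normalizer) hL₁sn u hu
  have huV : u ∈ V := (Subgroup.mem_inf.mp huU).1
  have hucL : u ∈ Subgroup.centralizer (L : Set G) := by
    have hle : Subgroup.normalClosure (L₁ : Set G) ≤ Subgroup.centralizer ({u} : Set G) := by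
      show Subgroup.closure (Group.conjugatesOfSet (L₁ : Set G)) ≤ _
      rw [Subgroup.closure_le]
      intro a ha
      obtain ⟨w, hw, haw⟩ := hgen a ha
      rw [mem_cj] at haw
      rw [SetLike.mem_coe, Subgroup.mem_centralizer_iff]
      intro y0 hy0
      rw [Set.mem_singleton_iff.mp hy0]
      have c1 : Commute u (w⁻¹ * a * w) := huc _ haw
      have c2 : Commute u w := elemAb_comm h.eab huV hw
      have e : a = w * (w⁻¹ * a * w) * w⁻¹ := by group
      rw [e]
      exact ((c2.mul_right c1).mul_right c2.inv_right).eq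
    rw [hJ] at hle
    rw [Subgroup.mem_centralizer_iff]
    intro l hl
    have := Subgroup.mem_centralizer_iff.mp (hle hl) u rfl
    exact this.symm
  rw [hCL] at hucL
  exact hu1 (Subgroup.mem_bot.mp hucL)

/-- the statement S3048 -/
theorem sidki_main (V : Subgroup G) (hV : IsElementaryAbelian 2 V) (hV1 : V ≠ ⊥)
    (hS : IsSidkiPair V) (hVO : V ⊓ pCore 2 G = ⊥)
    (hminG : ∀ (H : Type u) [Group H] [Finite H] (W : Subgroup H), Nat.card H < Nat.card G →
      IsElementaryAbelian 2 W → W ≠ ⊥ → IsSidkiPair W → W ⊓ pCore 2 H ≠ ⊥)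
    (hminV : ∀ W : Subgroup G, Nat.card W < Nat.card V → IsElementaryAbelian 2 W → W ≠ ⊥ →
      IsSidkiPair W → W ⊓ pCore 2 G ≠ ⊥) :
    IsSimpleGroup ↥(generalizedFittingSubgroup G) ∧
      ¬ IsMulCommutative ↥(generalizedFittingSubgroup G) ∧
      V ⊔ generalizedFittingSubgroup G = ⊤ := by
  haveI : Fact (Nat.Prime 2) := ⟨Nat.prime_two⟩
  have hO := sidki_pCore_bot V hV hV1 hS hVO hminG
  have h : SidkiMin V := ⟨hV, hV1, hS, hO, hminG, fun W hc hW hW1 hWS => by
    have := hminV W hc hW hW1 hWS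
    rw [hO, inf_bot_eq] at this
    exact this rfl⟩
  have hTne : (⊤ : Subgroup G) ≠ ⊥ := by
    intro e
    apply hV1
    rw [eq_bot_iff, ← e]
    exact le_top
  obtain ⟨L, hL, -⟩ := exists_minNormal_le (inferInstance : (⊤ : Subgroup G).Normal) hTne
  have htop := sm_sup_top h hL
  have hnab := sm_nonabelian h hL
  have hCL := sm_centralizer_bot h hL
  have hsim := sm_simple h hL
  have hLn := hL.1
  haveI hnt : Nontrivial L := (Subgroup.nontrivial_iff_ne_bot L).mpr hL.2.1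
  have hLsimple : IsSimpleGroup L := by
    refine { toNontrivial := hnt, eq_bot_or_eq_top_of_normal := fun N hN => ?_ }
    have h1 : N.map L.subtype ≤ L := Subgroup.map_subtype_le N
    have h2 : L ≤ Subgroup.normalizer ((N.map L.subtype : Subgroup G) : Set G) := by
      intro l hl
      apply mem_normalizer_of_conj_le
      rintro _ ⟨n, hn, rfl⟩
      exact ⟨⟨l, hl⟩ * n * ⟨l, hl⟩⁻¹, hN.conj_mem n hn ⟨l, hl⟩, rfl⟩
    rcases hsim _ h1 h2 with hb | ht
    · left
      exact (Subgroup.map_eq_bot_iff_of_injective N L.subtype_injective).mp hb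
    · right
      rw [eq_top_iff]
      intro x _
      have hx : (x : G) ∈ N.map L.subtype := by rw [ht]; exact x.2
      obtain ⟨n, hn, hnx⟩ := hx
      have : n = x := Subtype.ext hnx
      rw [← this]; exact hn
  have hQS : Cfsg.Agent.Lib.Helper66.QS L := by
    refine ⟨?_, ?_⟩
    · haveI := hLn
      have hcn : (⁅L, L⁆ : Subgroup G).Normal := Subgroup.commutator_normal L L
      have hle : ⁅L, L⁆ ≤ L := Subgroup.commutator_le_left L L
      rcases hsim _ hle (by rw [Subgroup.normalizer_eq_top_iff.mpr hcn]; exact le_top)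
        with hb | ht
      · exfalso
        apply hnab
        intro x hx y hy
        have := Subgroup.commutator_eq_bot_iff_le_centralizer.mp hb
        exact Subgroup.mem_centralizer_iff.mp (this hy) x hx
      · exact ht
    · intro N hN hLN hNne
      rcases hsim N hN hLN with hb | ht
      · rw [hb]; exact bot_le
      · exact absurd ht hNne
  have hLcomp : IsComponent L :=
    ⟨hLn.isSubnormal, Cfsg.Agent.Lib.Helper66.isQuasisimple_of_qs hQS hL.2.1⟩
  have hcompL : ∀ K : Subgroup G, IsComponent K → K = L := by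
    intro K hK
    have hKqs := Cfsg.Agent.Lib.Helper66.qs_of_isQuasisimple hK.2
    have hKL : K ≤ L := by
      rw [← hKqs.1, Subgroup.commutator_le]
      intro a _ b _
      rw [commutatorElement_def]
      exact comm_mem_of_sup_top h.eab hLn htop a b
    have hsn : (K.subgroupOf L).IsSubnormal := hK.1.subgroupOf
    rcases Subgroup.IsSubnormal.eq_bot_or_top_of_isSimpleGroup hLsimple hsn with hb | ht
    · exfalso
      apply Cfsg.Agent.Lib.Helper66.isComponent_ne_bot hK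
      rw [Subgroup.subgroupOf_eq_bot] at hb
      have h1 := disjoint_iff.mp hb
      rwa [inf_eq_left.mpr hKL] at h1
    · exact le_antisymm hKL (Subgroup.subgroupOf_eq_top.mp ht)
  have hlayer : layer G = L :=
    le_antisymm (sSup_le (fun K hK => (hcompL K hK).le)) (le_sSup hLcomp)
  have hF : fittingSubgroup G = ⊥ := by
    rw [Cfsg.Agent.Lib.Helper66.fitting_eq_iSup_pCore]
    simp only [iSup_eq_bot]
    intro q hq
    haveI : Fact q.Prime := ⟨hq⟩
    have hPn : (pCore q G).Normal := pCore_normal' q G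
    have hPL : (pCore q G ⊓ L).Normal := by
      haveI := hPn
      haveI := hLn
      exact Subgroup.normal_inf_normal _ _
    have hd : pCore q G ⊓ L = ⊥ := by
      by_contra hne
      have hle := hL.2.2 _ hPL hne inf_le_right
      have hLq : IsPGroup q L := (pCore_isPGroup' q).to_le (hle.trans inf_le_left)
      have := center_ne_bot_of_pgroup L hLq hL.2.1
      rw [hCL, inf_bot_eq] at this
      exact this rfl
    rw [eq_bot_iff, ← hCL]
    intro p hp
    rw [Subgroup.mem_centralizer_iff]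
    intro l hl
    have hmem : p * l * p⁻¹ * l⁻¹ ∈ pCore q G ⊓ L := by
      refine Subgroup.mem_inf.mpr ⟨?_, mul_mem (hLn.conj_mem l hl p) (inv_mem hl)⟩
      have e : p * l * p⁻¹ * l⁻¹ = p * (l * p⁻¹ * l⁻¹) := by group
      rw [e]; exact mul_mem hp (hPn.conj_mem _ (inv_mem hp) l)
    rw [hd, Subgroup.mem_bot] at hmem
    exact (mul_inv_eq_iff_eq_mul.mp (mul_inv_eq_one.mp hmem)).symm
  have hFstar : generalizedFittingSubgroup G = L := by
    unfold generalizedFittingSubgroup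
    rw [hlayer, hF, sup_bot_eq]
  rw [hFstar]
  refine ⟨hLsimple, ?_, htop⟩
  intro hc
  apply hnab
  intro x hx y hy
  exact congrArg Subtype.val (hc.is_comm.comm ⟨x, hx⟩ ⟨y, hy⟩)

end SidkiMain

end Cfsg.Agent.Lib.Helper56
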